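import Cfsg.Agent.H50.AltEight.Classify
import Cfsg.Agent.H6.SmallOrder
import Cfsg.Agent.H19.Cores

/-!
Nonsolvable subgroups of `A₈` with a nontrivial normal subgroup of odd order.
-/

set_option autoImplicit false

namespace Cfsg.Agent.H54.RankFour

open Equiv Subgroup Cfsg.Agent.H50.AltEight

variable {Q : Type*} [Group Q] [Finite Q]

theorem isSolvable_of_ker_range {K L : Type*} [Group K] [Group L] (φ : K →* L) (h1 : Group.IsSolvable φ.ker)
    (h2 : Group.IsSolvable φ.range) : Group.IsSolvable K :=
  Group.isSolvable_of_ker_le_range φ.ker.subtype φ.rangeRestrict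
    (by rw [MonoidHom.ker_rangeRestrict, Subgroup.range_subtype])

/-- Automorphism groups of abelian groups of order at most nine are small. -/
theorem card_mulAut_lt {M : Type*} [Group M] [Finite M]
    (hgen : ∃ x y : M, closure ({x, y} : Set M) = ⊤ ∧ (x = y ∨ (x ≠ 1 ∧ y ≠ 1 ∧ x ≠ y))) (hM : Nat.card M ≤ 9) :
    Nat.card (MulAut M) < 60 := by
  classical
  have : Fintype M := Fintype.ofFinite M
  obtain ⟨x, y, htop, hxy⟩ := hgen
  have hinj : Function.Injective fun σ : MulAut M => (σ x, σ y) := by
    intro σ τ h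
    refine MulEquiv.ext fun z => ?_
    have hz : z ∈ closure ({x, y} : Set M) := htop ▸ mem_top z
    have : closure ({x, y} : Set M) ≤ σ.toMonoidHom.eqLocus τ.toMonoidHom := by
      rw [closure_le]
      rintro w (rfl | rfl)
      · exact congrArg Prod.fst h
      · exact congrArg Prod.snd h
    exact this hz
  have hm : Fintype.card M ≤ 9 := by rwa [← Nat.card_eq_fintype_card]
  rcases hxy with rfl | ⟨hx, hy, hne⟩
  · refine lt_of_le_of_lt (Nat.card_le_card_of_injective (fun σ : MulAut M => σ x) ?_)
      (by omega : Nat.card M < 60)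
    intro σ τ h
    exact hinj (Prod.ext h h)
  · let U : Finset (M × M) := (Finset.univ.erase 1).offDiag
    let F : MulAut M → U := fun σ => ⟨(σ x, σ y), by
      simp [U, Finset.mem_offDiag, hx, hy, hne]⟩
    have hF : Function.Injective F := fun σ τ h => hinj (congrArg Subtype.val h)
    refine lt_of_le_of_lt (Nat.card_le_card_of_injective F hF) ?_
    rw [Nat.card_eq_fintype_card, Fintype.card_coe, Finset.offDiag_card,
      Finset.card_erase_of_mem (Finset.mem_univ _), Finset.card_univ]
    interval_cases Fintype.card M <;> norm_num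

/-- An even permutation supported inside the support of a three-cycle is one of its powers. -/
theorem mem_zpowers_of_support {x y : Perm (Fin 8)} (hx : x.IsThreeCycle) (hy : Perm.sign y = 1)
    (h : y.support ⊆ x.support) : y ∈ zpowers x := by
  have hcard : Fintype.card {i // i ∈ x.support} = 3 := by
    rw [Fintype.card_coe, hx.card_support]
  have key : ∀ z : Perm (Fin 8), z.support ⊆ x.support → ∀ i, z i ∈ x.support ↔ i ∈ x.support := by
    intro z hz i
    by_cases hi : z i = i
    · rw [hi]
    · exact ⟨fun _ => hz (Perm.mem_support.2 hi), fun _ => hz (Perm.apply_mem_support.2 (Perm.mem_support.2 hi))⟩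
  have hh : ∀ (z : Perm (Fin 8)) (hz : z.support ⊆ x.support) (i : Fin 8), z i ≠ i → i ∈ x.support :=
    fun z hz i hi => hz (Perm.mem_support.2 hi)
  set x' : Perm {i // i ∈ x.support} := x.subtypePerm (key x subset_rfl)
  set y' : Perm {i // i ∈ x.support} := y.subtypePerm (key y h)
  have hx' : x' ∈ alternatingGroup {i // i ∈ x.support} := by
    rw [Equiv.Perm.mem_alternatingGroup]; convert (Perm.sign_subtypePerm _ (key x subset_rfl) (hh x subset_rfl)).trans hx.sign
  have hy' : y' ∈ alternatingGroup {i // i ∈ x.support} := by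
    rw [Equiv.Perm.mem_alternatingGroup]; convert (Perm.sign_subtypePerm _ (key y h) (hh y h)).trans hy
  have ho : ∀ z : Perm (Fin 8), ∀ (hz : z.support ⊆ x.support), Perm.ofSubtype (z.subtypePerm (key z hz)) = z :=
    fun z hz => Perm.ofSubtype_subtypePerm _ (hh z hz)
  have : Fact (Nat.Prime 3) := ⟨Nat.prime_three⟩
  have : Nontrivial {i // i ∈ x.support} := Fintype.one_lt_card_iff_nontrivial.1 (by omega)
  have h3 : Nat.card (alternatingGroup {i // i ∈ x.support}) = 3 := by
    rw [nat_card_alternatingGroup, Nat.card_eq_fintype_card, hcard]; rfl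
  have hne : (⟨x', hx'⟩ : alternatingGroup {i // i ∈ x.support}) ≠ 1 := fun e => by
    have e' : x' = 1 := congrArg Subtype.val e
    have := ho x subset_rfl
    rw [show x.subtypePerm _ = x' from rfl, e', map_one] at this
    exact absurd (hx.card_support) (by rw [← this]; simp)
  obtain ⟨k, hk⟩ : (⟨y', hy'⟩ : alternatingGroup {i // i ∈ x.support}) ∈ zpowers ⟨x', hx'⟩ := by
    rw [zpowers_eq_top_of_prime_card h3 hne]; exact mem_top _
  refine ⟨k, ?_⟩
  have hk' : x' ^ k = y' := congrArg Subtype.val hk
  show x ^ k = y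
  rw [← ho x subset_rfl, ← map_zpow, ← ho y h]
  exact congrArg _ hk'

/-- A nonsolvable subgroup of `A₈` with a nontrivial normal subgroup of odd order. -/
theorem odd_core_case (f : Q →* A8) (hf : Function.Injective f) (hns : ¬ Group.IsSolvable Q)
    (hO : Cfsg.pPrimeCore 2 Q ≠ ⊥) :
    Nat.card (Cfsg.pCore 3 Q) = 3 ∧
      ∀ [(Cfsg.pCore 3 Q).Normal], Nonempty (Q ⧸ Cfsg.pCore 3 Q ≃* alternatingGroup (Fin 5)) ∨
        Nonempty (Q ⧸ Cfsg.pCore 3 Q ≃* Perm (Fin 5)) := by
  classical
  obtain ⟨M, ⟨hMn, hM1, hMmin⟩, hMO⟩ :=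
    Cfsg.Agent.H32.exists_minNormal_le _ (Cfsg.Agent.H19.pPrimeCore_normal 2 Q) hO
  have hMcop : (Nat.card M).Coprime 2 :=
    (Cfsg.Agent.H19.pPrimeCore_coprime 2).coprime_dvd_left (card_dvd_of_le hMO)
  obtain ⟨T, s, hTs, hs, -, hsup⟩ := Cfsg.Agent.H37.minimalNormal_structure M hM1 hMmin
  obtain ⟨hTn, hTsimple, -⟩ := hs T hTs
  have hTc : IsMulCommutative T := by
    by_contra hna
    have := hTsimple
    have hd : Nat.card T ∣ Nat.card M := card_subgroup_dvd_card T
    rcases card_simple hna ((f.comp M.subtype).comp T.subtype)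
        ((hf.comp M.subtype_injective).comp T.subtype_injective) with h | h | h | h | h <;>
    · rw [h] at hd
      have := Nat.dvd_gcd ((show 2 ∣ _ from by norm_num).trans hd) (dvd_refl 2)
      rw [hMcop] at this
      norm_num at this
  let _ : CommGroup T := { (inferInstance : Group T) with mul_comm := fun a b => hTc.is_comm.comm a b }
  set p := Nat.card T with hpdef
  have hp : p.Prime := CommGroup.is_simple_iff_prime_card.mp hTsimple
  have : Fact p.Prime := ⟨hp⟩
  have hMp : IsPGroup p M := by
    have htop : (⊤ : Subgroup M) ≤ Cfsg.pCore p M := by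
      rw [← hsup]
      refine iSup_le fun K => ?_
      obtain ⟨hKn, -, h, hK⟩ := hs K K.2
      exact Cfsg.Agent.H40.le_pCore hKn (IsPGroup.of_card (n := 1) (by
        rw [hK, Subgroup.card_map_of_injective (MulEquiv.injective _), pow_one]))
    exact ((Cfsg.Agent.H40.isPGroup_pCore p M).to_le htop).of_equiv Subgroup.topEquiv
  have : Nontrivial M := (Subgroup.nontrivial_iff_ne_bot M).2 hM1
  have hMc : ∀ a ∈ M, ∀ b ∈ M, a * b = b * a := by
    have hcn : ((center M).map M.subtype).Normal := inferInstance
    rcases hMmin _ hcn (map_subtype_le _) with h | h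
    · exfalso
      have := hMp.center_nontrivial
      exact (Subgroup.nontrivial_iff_ne_bot (center M)).1 this
        ((map_eq_bot_iff_of_injective _ M.subtype_injective).1 h)
    · intro a ha b hb
      rw [← h] at hb
      obtain ⟨b', hb', rfl⟩ := hb
      exact congrArg Subtype.val (mem_center_iff.1 hb' ⟨a, ha⟩)
  obtain ⟨e, he⟩ := IsPGroup.iff_card.1 hMp
  have hMd : Nat.card M ∣ 20160 := card_A8 ▸ (card_subgroup_dvd_card M).trans (card_dvd_of_injective f hf)
  have hMle : Nat.card M ≤ 9 := by
    have hodd : Odd (Nat.card M) := Nat.coprime_two_right.1 hMcop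
    have hall : ∀ d ∈ Nat.divisors 20160, d % 2 = 1 → d.primeFactors.card ≤ 1 → d ≤ 9 := by decide +kernel
    refine hall _ (Nat.mem_divisors.2 ⟨hMd, by norm_num⟩) (Nat.odd_iff.1 hodd) ?_
    rw [he]
    rcases Nat.eq_zero_or_pos e with h0 | h0
    · simp [h0]
    · rw [Nat.primeFactors_prime_pow h0.ne' hp]; simp
  haveI := hMn
  set act : Q →* MulAut M := MulAut.conjNormal with hact
  have hker : ∀ q, q ∈ act.ker → ∀ x ∈ M, q * x = x * q := fun q hq x hx => by
    have h : MulAut.conjNormal q (⟨x, hx⟩ : M) = ⟨x, hx⟩ := DFunLike.congr_fun hq ⟨x, hx⟩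
    exact mul_inv_eq_iff_eq_mul.1 (congrArg Subtype.val h)
  have hgen : ∃ x y : M, closure ({x, y} : Set M) = ⊤ ∧ (x = y ∨ (x ≠ 1 ∧ y ≠ 1 ∧ x ≠ y)) := by
    obtain ⟨x, hx⟩ := exists_ne (1 : M)
    by_cases hall : ∀ y : M, y ∈ zpowers x
    · refine ⟨x, x, ?_, Or.inl rfl⟩
      rw [eq_top_iff]
      intro y _
      exact (zpowers_le.2 (subset_closure (by simp))) (hall y)
    · push Not at hall
      obtain ⟨y, hy⟩ := hall
      refine ⟨x, y, ?_, Or.inr ⟨hx, fun h => hy (h ▸ one_mem _), fun h => hy (h ▸ mem_zpowers x)⟩⟩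
      have hle : zpowers x < closure ({x, y} : Set M) :=
        lt_of_le_of_ne (zpowers_le.2 (subset_closure (by simp)))
          fun h => hy (h ▸ subset_closure (by simp))
      have h1 : 1 < Nat.card (zpowers x) := by
        rw [Nat.card_zpowers]
        rcases Nat.lt_or_ge 1 (orderOf x) with h | h
        · exact h
        · exact absurd (orderOf_eq_one_iff.1 (le_antisymm h (orderOf_pos x))) hx
      have h2 : Nat.card (zpowers x) < Nat.card (closure ({x, y} : Set M)) :=
        (Set.ncard_lt_ncard (SetLike.coe_ssubset_coe.2 hle) (Set.toFinite _))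
      refine eq_top_of_card_eq _ ?_
      obtain ⟨i, -, hi⟩ := (Nat.dvd_prime_pow hp).1 (he ▸ card_subgroup_dvd_card (zpowers x))
      obtain ⟨j, -, hj⟩ := (Nat.dvd_prime_pow hp).1 (he ▸ card_subgroup_dvd_card (closure ({x, y} : Set M)))
      rw [hi] at h1 h2
      rw [hj] at h2 ⊢
      rw [he] at hMle ⊢
      have hij : i < j := (Nat.pow_lt_pow_iff_right hp.one_lt).1 h2
      have hi1 : 1 ≤ i := by
        rcases Nat.eq_zero_or_pos i with h | h
        · simp [h] at h1
        · exact h
      have hje : j ≤ e := (Nat.pow_dvd_pow_iff_le_right hp.one_lt).1 (he ▸ hj ▸ card_subgroup_dvd_card _)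
      have hp3 : 3 ≤ p := by
        have := hp.two_le
        rcases Nat.lt_or_ge 2 p with h | h
        · exact h
        · have h2' : p = 2 := by omega
          have hodd : Odd (Nat.card M) := Nat.coprime_two_right.1 hMcop
          rw [he, h2'] at hodd
          exact absurd hodd (Nat.not_odd_iff_even.2 ((Nat.even_pow' (by omega)).2 even_two))
      have he2 : e ≤ 2 := by
        by_contra hcon
        have h27 : 3 ^ 3 ≤ p ^ e := (Nat.pow_le_pow_left hp3 3).trans (Nat.pow_le_pow_right hp.pos (by omega))
        omega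
      rw [show j = e by omega]
  have hCns : ¬ Group.IsSolvable act.ker := fun h => hns (isSolvable_of_ker_range act h
    (Cfsg.Agent.H6.isSolvable_of_card_lt_sixty
      ((Nat.card_le_card_of_injective _ act.range.subtype_injective).trans_lt (card_mulAut_lt hgen hMle))))
  have hC60 : 60 ≤ Nat.card act.ker := not_lt.1 fun h => hCns (Cfsg.Agent.H6.isSolvable_of_card_lt_sixty h)
  set g : Q →* Perm (Fin 8) := (alternatingGroup (Fin 8)).subtype.comp f with hg'
  have hg : Function.Injective g := Subtype.val_injective.comp hf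
  have hsign : ∀ q, Perm.sign (g q) = 1 := fun q => (f q).2
  -- every element is a three-cycle
  have hcyc : ∀ x ∈ M, x ≠ 1 → (g x).IsThreeCycle := by
    intro x hx hx1
    have ho : orderOf (g x) = p := by
      rw [orderOf_injective g hg]
      obtain ⟨k, hk, hk'⟩ := (Nat.dvd_prime_pow hp).1 (he ▸ (Subgroup.orderOf_dvd_natCard M hx))
      rcases k with - | - | k
      · exact absurd (orderOf_eq_one_iff.1 (by rw [hk', pow_zero])) hx1
      · rw [hk', zero_add, pow_one]
      · exfalso
        have hT' : ∀ m ∈ M, m ^ p = 1 := by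
          let K : Subgroup Q :=
            { carrier := {m | m ∈ M ∧ m ^ p = 1}
              one_mem' := ⟨one_mem _, one_pow _⟩
              mul_mem' := fun {a b} ha hb => ⟨mul_mem ha.1 hb.1, by
                rw [Commute.mul_pow (hMc a ha.1 b hb.1), ha.2, hb.2, one_mul]⟩
              inv_mem' := fun {a} ha => ⟨inv_mem ha.1, by rw [inv_pow, ha.2, inv_one]⟩ }
          have hKn : K.Normal := ⟨fun m hm q => ⟨hMn.conj_mem m hm.1 q, by
            rw [conj_pow, hm.2, mul_one, mul_inv_cancel]⟩⟩
          rcases hMmin K hKn (fun m hm => hm.1) with h | h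
          · exfalso
            obtain ⟨m, hm⟩ := exists_prime_orderOf_dvd_card' (G := M) p
              (he ▸ dvd_pow_self p (by rintro rfl; simp at hk))
            have : (m : Q) ∈ K := ⟨m.2, by rw [← hm, ← Subgroup.coe_pow, pow_orderOf_eq_one]; rfl⟩
            rw [h, Subgroup.mem_bot] at this
            rw [show m = 1 from Subtype.ext this, orderOf_one] at hm
            exact hp.ne_one hm.symm
          · exact fun m hm => (h ▸ hm : m ∈ K).2
        have hd := orderOf_dvd_of_pow_eq_one (hT' x hx)
        rw [hk'] at hd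
        have := Nat.le_of_dvd hp.pos hd
        have h2' : p ^ 2 ≤ p ^ (k + 1 + 1) := Nat.pow_le_pow_right hp.pos (by omega)
        nlinarith [hp.two_le]
    have hle : Nat.card act.ker ≤ Nat.card (centralizer ({g x} : Set (Perm (Fin 8)))) := by
      refine Nat.card_le_card_of_injective (fun q => ⟨g q, mem_centralizer_singleton_iff.2 ?_⟩)
        fun a b h => Subtype.ext (hg (congrArg (fun z : ↥(centralizer ({g x} : Set (Perm (Fin 8)))) => (z : Perm (Fin 8))) h :))
      rw [← map_mul, ← map_mul, hker q q.2 x hx]
    obtain ⟨k, hk⟩ := Perm.cycleType_prime_order (σ := g x) (ho.symm ▸ hp)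
    rw [ho] at hk
    have hsum := (g x).sum_cycleType_le
    rw [hk, Multiset.sum_replicate, smul_eq_mul, Fintype.card_fin] at hsum
    have hp3 : 3 ≤ p := by
      have := hp.two_le
      rcases Nat.lt_or_ge 2 p with h | h
      · exact h
      · exfalso
        have h2' : p = 2 := by omega
        have hd : p ∣ Nat.card M := by
          rw [← ho, orderOf_injective g hg]; exact Subgroup.orderOf_dvd_natCard M hx
        have := Nat.dvd_gcd (h2' ▸ hd) (dvd_refl 2)
        rw [hMcop] at this
        norm_num at this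
    have hcen := Equiv.Perm.nat_card_centralizer (g x)
    rw [hk, Fintype.card_fin] at hcen
    have hple : p ≤ 8 := le_trans (Nat.le_mul_of_pos_left p (by omega)) hsum
    have hk1 : k ≤ 1 := by nlinarith
    interval_cases p <;> interval_cases k <;> first
      | (exfalso; revert hp; norm_num; done)
      | omega
      | (exfalso; rw [hcen] at hle; exact absurd (hC60.trans hle) (by decide +kernel))
      | exact hk
  obtain ⟨x, hx, hx1⟩ := (bot_or_exists_ne_one M).resolve_left hM1
  have hx3 := hcyc x hx hx1
  have hMx : ∀ y ∈ M, y ∈ zpowers x := by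
    intro y hy
    by_cases hy1 : y = 1
    · rw [hy1]; exact one_mem _
    suffices g y ∈ zpowers (g x) by
      obtain ⟨k, hk⟩ := this
      exact ⟨k, hg (by rw [map_zpow]; exact hk)⟩
    have hy3 := hcyc y hy hy1
    refine mem_zpowers_of_support hx3 (hsign y) ?_
    by_cases hd : Perm.Disjoint (g y) (g x)
    · exfalso
      have hct := hd.cycleType_mul
      rw [hy3, hx3, ← map_mul] at hct
      by_cases hyx : y * x = 1
      · rw [hyx, map_one, Perm.cycleType_one] at hct
        exact absurd (congrArg Multiset.card hct) (by simp)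
      · rw [hcyc _ (mul_mem hy hx) hyx] at hct
        exact absurd (congrArg Multiset.card hct) (by simp)
    · obtain ⟨a, hay, hax⟩ : ∃ a, a ∈ (g y).support ∧ a ∈ (g x).support := by
        rw [Perm.disjoint_iff_disjoint_support, Finset.not_disjoint_iff] at hd
        exact hd
      have hcomm : g y * g x = g x * g y := by rw [← map_mul, ← map_mul, hMc y hy x hx]
      have hmaps : ∀ i, i ∈ (g x).support → g y i ∈ (g x).support := by
        intro i hi
        rw [Perm.mem_support] at hi ⊢
        intro h
        apply hi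
        have := congrArg (fun σ : Perm (Fin 8) => σ i) hcomm
        simp only [Perm.mul_apply] at this
        rw [h] at this
        exact (g y).injective this
      set b := g y a
      set c := g y b
      have hsub : ({a, b, c} : Finset (Fin 8)) ⊆ (g x).support := by
        intro i hi
        simp only [Finset.mem_insert, Finset.mem_singleton] at hi
        rcases hi with rfl | rfl | rfl
        · exact hax
        · exact hmaps _ hax
        · exact hmaps _ (hmaps _ hax)
      have hab : b ≠ a := Perm.mem_support.1 hay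
      have hbc : c ≠ b := fun h => hab ((g y).injective h)
      have hac : c ≠ a := fun h => hab (by
        have h3 : (g y ^ 3) a = a := by rw [← hy3.orderOf, pow_orderOf_eq_one]; rfl
        simp only [pow_succ, pow_zero, one_mul, Perm.mul_apply] at h3
        have h3' : g y c = a := h3
        rw [h] at h3'
        exact h3')
      have heq : ({a, b, c} : Finset (Fin 8)) = (g y).support := by
        refine Finset.eq_of_subset_of_card_le (fun i hi => ?_) ?_
        · simp only [Finset.mem_insert, Finset.mem_singleton] at hi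
          rcases hi with rfl | rfl | rfl
          · exact hay
          · exact Perm.apply_mem_support.2 hay
          · exact Perm.apply_mem_support.2 (Perm.apply_mem_support.2 hay)
        · rw [hy3.card_support]
          rw [Finset.card_insert_of_notMem (by simp [Ne.symm hab, Ne.symm hac]),
            Finset.card_pair (Ne.symm hbc)]
      exact heq ▸ hsub
  have hMeq : M = zpowers x := le_antisymm hMx (zpowers_le.2 hx)
  have hM3 : Nat.card M = 3 := by
    rw [hMeq, Nat.card_zpowers, ← orderOf_injective g hg, hx3.orderOf]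
  -- the action outside the support
  have hperm : ∀ (q : Q) (i : Fin 8), g q i ∉ (g x).support ↔ i ∉ (g x).support := by
    intro q i
    have hmem : q * x * q⁻¹ ∈ M := hMn.conj_mem x hx q
    obtain ⟨k, hk⟩ := hMx _ hmem
    have hne : q * x * q⁻¹ ≠ 1 := fun h => hx1 (conj_eq_one_iff.1 h)
    have hsupp : (g x).support.map (g q).toEmbedding = (g x).support := by
      have e : g q * g x * (g q)⁻¹ = g x ^ k := by rw [← map_inv, ← map_mul, ← map_mul, ← map_zpow]; exact congrArg g hk.symm
      rw [← Perm.support_conj, e]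
      refine Finset.eq_of_subset_of_card_le (Perm.support_zpow_le _ _) ?_
      rw [hx3.card_support, ← e, Perm.support_conj, Finset.card_map, hx3.card_support]
    conv_lhs => rw [← hsupp]
    rw [Finset.mem_map_equiv, Equiv.symm_apply_apply]
  let ρ₀ : Q →* Perm {i // i ∉ (g x).support} :=
    MonoidHom.mk' (fun q => (g q).subtypePerm (hperm q)) fun a b => Perm.ext fun i => Subtype.ext (DFunLike.congr_fun (map_mul g a b) (i : Fin 8) :)
  have h5 : Fintype.card {i // i ∉ (g x).support} = 5 := by
    rw [Fintype.card_subtype_compl, Fintype.card_coe, hx3.card_support, Fintype.card_fin]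
  let ε := (Fintype.equivFinOfCardEq h5).permCongrHom
  let ρ : Q →* Perm (Fin 5) := ε.toMonoidHom.comp ρ₀
  have hρ : ρ.ker = M := by
    ext q
    have h0 : q ∈ ρ.ker ↔ ρ₀ q = 1 := by
      rw [MonoidHom.mem_ker]
      exact map_eq_one_iff ε ε.injective
    rw [h0]
    constructor
    · intro h
      have hsub : (g q).support ⊆ (g x).support := by
        intro i hi
        by_contra hni
        exact Perm.mem_support.1 hi (congrArg Subtype.val (DFunLike.congr_fun h (⟨i, hni⟩ : {i // i ∉ (g x).support})) :)
      obtain ⟨k, hk⟩ := mem_zpowers_of_support hx3 (hsign q) hsub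
      rw [hMeq]
      exact ⟨k, hg (by rw [map_zpow]; exact hk)⟩
    · intro h
      obtain ⟨k, rfl⟩ := hMx q h
      refine Perm.ext fun i => Subtype.ext ?_
      show g (x ^ k) i = (i : Fin 8)
      rw [map_zpow]
      exact Perm.notMem_support.1 fun hi => i.2 (Perm.support_zpow_le _ _ hi)
  have hR60 : 60 ≤ Nat.card ρ.range := by
    refine not_lt.1 fun h => hns (isSolvable_of_ker_range ρ ?_ (Cfsg.Agent.H6.isSolvable_of_card_lt_sixty h))
    rw [hρ]
    exact Cfsg.Agent.H6.isSolvable_of_card_lt_sixty (by omega)
  have h120 : Nat.card (Perm (Fin 5)) = 120 := by rw [Nat.card_perm, Nat.card_fin]; rfl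
  have hidx : ρ.range.index = 1 ∨ ρ.range.index = 2 := by
    have h := ρ.range.index_mul_card
    rw [h120] at h
    have hpos : 0 < ρ.range.index := Nat.pos_of_ne_zero Subgroup.index_ne_zero_of_finite
    have : ρ.range.index ≤ 2 := by nlinarith
    omega
  have hA5 : alternatingGroup (Fin 5) ≤ ρ.range := by
    rcases hidx with h | h
    · rw [Subgroup.index_eq_one.1 h]; exact le_top
    · exact (Equiv.Perm.eq_alternatingGroup_of_index_eq_two h).ge
  have : Fact (Nat.Prime 3) := ⟨Nat.prime_three⟩
  have hM3' : IsPGroup 3 M := IsPGroup.of_card (n := 1) (by rw [hM3, pow_one])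
  have hcore : Cfsg.pCore 3 Q = M := by
    refine le_antisymm ?_ (Cfsg.Agent.H40.le_pCore hMn hM3')
    rw [← hρ, ← Subgroup.map_eq_bot_iff]
    set L := (Cfsg.pCore 3 Q).map ρ
    have hLp : IsPGroup 3 L := (Cfsg.Agent.H40.isPGroup_pCore 3 Q).map ρ
    have hLA : L ≤ alternatingGroup (Fin 5) := by
      intro l hl
      rw [Equiv.Perm.mem_alternatingGroup]
      obtain ⟨k, hk⟩ := hLp ⟨l, hl⟩
      have h := congrArg (fun z : L => Perm.sign (z : Perm (Fin 5))) hk
      simp only [SubgroupClass.coe_pow, map_pow, OneMemClass.coe_one, map_one] at h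
      rcases Int.units_eq_one_or (Perm.sign l) with h1 | h1
      · exact h1
      · rw [h1, (Odd.pow (by decide : Odd 3)).neg_one_pow] at h
        exact absurd h (by decide)
    haveI := Cfsg.Agent.H40.pCore_normal' 3 Q
    have hLn : (L.subgroupOf (alternatingGroup (Fin 5))).Normal := ⟨fun l hl a => by
      rw [Subgroup.mem_subgroupOf] at hl ⊢
      obtain ⟨q, hq, e⟩ := hl
      obtain ⟨r, hr⟩ := hA5 a.2
      exact ⟨r * q * r⁻¹, (inferInstance : (Cfsg.pCore 3 Q).Normal).conj_mem q hq r, by
        simp [map_mul, map_inv, e, hr]⟩⟩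
    haveI := alternatingGroup.isSimpleGroup_five
    rcases hLn.eq_bot_or_eq_top with h | h
    · rw [Subgroup.subgroupOf_eq_bot, disjoint_iff, inf_eq_left.2 hLA] at h
      exact h
    · exfalso
      have h60 : Nat.card (alternatingGroup (Fin 5)) = 60 := by
        rw [nat_card_alternatingGroup, Nat.card_fin]; rfl
      have hd := card_dvd_of_le (Subgroup.subgroupOf_eq_top.1 h)
      obtain ⟨k, hk⟩ := IsPGroup.iff_card.1 hLp
      rw [h60, hk] at hd
      have := Nat.prime_two.dvd_of_dvd_pow ((show 2 ∣ 60 by norm_num).trans hd)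
      norm_num at this
  refine ⟨hcore ▸ hM3, ?_⟩
  intro hn
  let e1 : Q ⧸ Cfsg.pCore 3 Q ≃* ρ.range :=
    (QuotientGroup.quotientMulEquivOfEq (hcore.trans hρ.symm)).trans (QuotientGroup.quotientKerEquivRange ρ)
  rcases hidx with h | h
  · exact Or.inr ⟨e1.trans ((MulEquiv.subgroupCongr (Subgroup.index_eq_one.1 h)).trans Subgroup.topEquiv)⟩
  · exact Or.inl ⟨e1.trans (MulEquiv.subgroupCongr (Equiv.Perm.eq_alternatingGroup_of_index_eq_two h))⟩

end Cfsg.Agent.H54.RankFour
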