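import Mathlib
import Cfsg.Prelude.Def_CaseTheorems

/-!
A faithful action of the symmetric group of degree six on an elementary abelian group of order
sixteen produces, in any extension, an elementary abelian section of order thirty two.
-/

set_option autoImplicit false

namespace Cfsg.Agent.H54.RankFour

open Equiv

section Module

variable {V : Type*} [CommGroup V] [Finite V] {S : Type*} [Group S] (φ : S →* MulAut V)

/-- The fixed subgroup of an element. -/
def fixd (g : S) : Subgroup V where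
  carrier := {v | φ g v = v}
  one_mem' := map_one _
  mul_mem' {v w} hv hw := by
    show φ g (v * w) = v * w
    rw [map_mul, hv, hw]
  inv_mem' {v} hv := by
    show φ g v⁻¹ = v⁻¹
    rw [map_inv, hv]

theorem mem_fixd {g : S} {v : V} : v ∈ fixd φ g ↔ φ g v = v := Iff.rfl

theorem act_mul (g h : S) (v : V) : φ (g * h) v = φ g (φ h v) := by rw [map_mul]; rfl

theorem act_one (v : V) : φ 1 v = v := by rw [map_one]; rfl

theorem act_comm {g h : S} (e : g * h = h * g) (v : V) : φ g (φ h v) = φ h (φ g v) := by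
  rw [← act_mul, e, act_mul]

theorem fixd_inv (g : S) : fixd φ g⁻¹ = fixd φ g := by
  ext v
  rw [mem_fixd, mem_fixd]
  constructor <;> intro h
  · conv_lhs => rw [← h, ← act_mul, mul_inv_cancel, act_one]
  · conv_lhs => rw [← h, ← act_mul, inv_mul_cancel, act_one]

theorem fixd_conj {t g g' : S} (h : t * g = g' * t) {v : V} (hv : v ∈ fixd φ g) : φ t v ∈ fixd φ g' := by
  rw [mem_fixd, ← act_mul, ← h, act_mul, (mem_fixd φ).1 hv]

theorem eq_one_of_fixd_top (hinj : Function.Injective φ) {g : S} (h : ∀ v, v ∈ fixd φ g) : g = 1 :=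
  hinj (by rw [map_one]; exact MulEquiv.ext fun v => h v)

/-- The trace of an element of order dividing three. -/
def tr (g : S) (v : V) : V := v * φ g v * φ g (φ g v)

theorem tr_mem {g : S} (hg : g ^ 3 = 1) (v : V) : tr φ g v ∈ fixd φ g := by
  have h3 : φ g (φ g (φ g v)) = v := by
    rw [← act_mul, ← act_mul, ← pow_three' g, hg, act_one]
  rw [mem_fixd, tr, map_mul, map_mul, h3]
  ac_rfl

omit [Finite V] in
theorem eq_prod_nine (h2 : ∀ v : V, v ^ 2 = 1) (x0 x1 x2 x3 x4 x5 x6 x7 x8 : V) :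
    (x0 * x3 * x6) * (x0 * x1 * x2) * (x0 * x4 * x8) * (x0 * x5 * x7) *
      ((x0 * x1 * x2) * (x3 * x4 * x5) * (x6 * x7 * x8)) = x0 := by
  have e : (x0 * x3 * x6) * (x0 * x1 * x2) * (x0 * x4 * x8) * (x0 * x5 * x7) *
      ((x0 * x1 * x2) * (x3 * x4 * x5) * (x6 * x7 * x8)) =
      x0 * ((x0 * x0) * (x0 * x0)) *
        ((x1 * x1) * (x2 * x2) * (x3 * x3) * (x4 * x4) * (x5 * x5) * (x6 * x6) * (x7 * x7) * (x8 * x8)) := by
    ac_rfl
  rw [e]
  simp only [← pow_two, h2, mul_one]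

/-- The identity behind generation by fixed points of the four subgroups of order three. -/
theorem mem_of_traces (h2 : ∀ v : V, v ^ 2 = 1) {a b : S} (ha : a ^ 3 = 1) (hb : b ^ 3 = 1)
    (hab : a * b = b * a) (U : Subgroup V) (ua : ∀ v, tr φ a v ∈ U) (ub : ∀ v, tr φ b v ∈ U)
    (uab : ∀ v ∈ fixd φ (a * b), v ∈ U) (uab' : ∀ v ∈ fixd φ (a * b⁻¹), v ∈ U) (v : V) : v ∈ U := by
  have e : tr φ a v * tr φ b v * tr φ (a * b) v * tr φ (a * b⁻¹) v * tr φ a (tr φ b v) = v := by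
    have hbinv : ∀ w, φ b⁻¹ w = φ b (φ b w) := fun w => by
      rw [← act_mul, show b⁻¹ = b * b from by rw [inv_eq_iff_mul_eq_one, ← mul_assoc, ← pow_two, ← pow_succ, hb]]
    simp only [tr, map_mul, MulAut.mul_apply, hbinv, ← act_comm φ hab]
    have hb3 : ∀ w, φ b (φ b (φ b w)) = w := fun w => by
      rw [← act_mul, ← act_mul, ← pow_three' b, hb, act_one]
    try simp only [hb3]
    exact eq_prod_nine h2 v (φ b v) (φ b (φ b v)) (φ a v) (φ a (φ b v)) (φ a (φ b (φ b v)))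
      (φ a (φ a v)) (φ a (φ a (φ b v))) (φ a (φ a (φ b (φ b v))))
  rw [← e]
  refine mul_mem (mul_mem (mul_mem (mul_mem (ua v) (ub v)) (uab _ (tr_mem φ ?_ v)))
    (uab' _ (tr_mem φ ?_ v))) (ua _)
  · rw [Commute.mul_pow (show Commute a b from hab), ha, hb, one_mul]
  · rw [Commute.mul_pow (Commute.inv_right (show Commute a b from hab)), ha, inv_pow, hb, inv_one, one_mul]

/-- Fixed points of an element of order three on a group of order sixteen. -/
theorem card_fixd (hinj : Function.Injective φ) (hV : Nat.card V = 16) {g : S} (hg : g ^ 3 = 1)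
    (hg1 : g ≠ 1) : Nat.card (fixd φ g) = 1 ∨ Nat.card (fixd φ g) = 4 := by
  have : Fact (Nat.Prime 3) := ⟨Nat.prime_three⟩
  have ho : orderOf (φ g) = 3 :=
    orderOf_eq_prime (by rw [← map_pow, hg, map_one]) fun h => hg1 (hinj (h.trans (map_one φ).symm))
  have hP : IsPGroup 3 (Subgroup.zpowers (φ g)) :=
    IsPGroup.of_card (n := 1) (by rw [Nat.card_zpowers, ho, pow_one])
  have hm := hP.card_modEq_card_fixedPoints V
  have he : Nat.card (MulAction.fixedPoints (Subgroup.zpowers (φ g)) V) = Nat.card (fixd φ g) := by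
    refine Nat.card_congr (Equiv.subtypeEquivRight fun v => ?_)
    constructor
    · intro h; exact h ⟨φ g, Subgroup.mem_zpowers _⟩
    · intro h x
      have hle : Subgroup.zpowers (φ g) ≤ MulAction.stabilizer (MulAut V) v := by
        rw [Subgroup.zpowers_le]; exact h
      exact hle x.2
  rw [he, hV, Nat.ModEq] at hm
  have hd : Nat.card (fixd φ g) ∣ 2 ^ 4 := by
    rw [show (2 : ℕ) ^ 4 = 16 from rfl, ← hV]; exact Subgroup.card_subgroup_dvd_card _
  obtain ⟨i, hi, e⟩ := (Nat.dvd_prime_pow Nat.prime_two).1 hd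
  rw [e] at hm ⊢
  interval_cases i
  · exact Or.inl rfl
  · norm_num at hm
  · exact Or.inr rfl
  · norm_num at hm
  exfalso
  refine hg1 (eq_one_of_fixd_top φ hinj fun v => ?_)
  rw [show fixd φ g = ⊤ from Subgroup.eq_top_of_card_eq _ (by rw [e, hV]; norm_num)]
  exact Subgroup.mem_top v

/-- Three elements different from one in a group of order four. -/
theorem four_cases {U : Subgroup V} (hU : Nat.card U = 4) {x y z v : V} (hx : x ∈ U) (hy : y ∈ U)
    (hz : z ∈ U) (hv : v ∈ U) (hx1 : x ≠ 1) (hy1 : y ≠ 1) (hz1 : z ≠ 1) (hxy : x ≠ y) (hxz : x ≠ z)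
    (hyz : y ≠ z) : v = 1 ∨ v = x ∨ v = y ∨ v = z := by
  classical
  let f : Fin 4 → U := ![1, ⟨x, hx⟩, ⟨y, hy⟩, ⟨z, hz⟩]
  have hf : Function.Injective f := by
    intro i j h
    fin_cases i <;> fin_cases j <;> simp [f, Subtype.ext_iff, hx1, hy1, hz1, hxy, hxz, hyz, Ne.symm hx1,
      Ne.symm hy1, Ne.symm hz1, Ne.symm hxy, Ne.symm hxz, Ne.symm hyz] at h ⊢
  obtain ⟨i, hi⟩ := ((Nat.bijective_iff_injective_and_card f).2 ⟨hf, by rw [hU, Nat.card_fin]⟩).2 ⟨v, hv⟩
  have hi' := congrArg Subtype.val hi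
  fin_cases i <;> simp [f] at hi' <;> simp [← hi']

/-- The data of two commuting transvection-like involutions. -/
structure Pair (a b t s : S) : Prop where
  a3 : a ^ 3 = 1
  b3 : b ^ 3 = 1
  comm : a * b = b * a
  ab : a * b ≠ 1
  ab' : a * b⁻¹ ≠ 1
  a1 : a ≠ 1
  b1 : b ≠ 1
  t2 : t * t = 1
  t1 : t ≠ 1
  s2 : s * s = 1
  s1 : s ≠ 1
  tb : t * b = b * t
  ta : t * a = a⁻¹ * t
  sa : s * a = a * s
  sb : s * b = b⁻¹ * s
  ts : t * s = s * t

/-- The two fixed subgroups decompose the module. -/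
theorem Pair.decomp {a b t s : S} (P : Pair a b t s) (hinj : Function.Injective φ) (hV : Nat.card V = 16)
    (h2 : ∀ v : V, v ^ 2 = 1) (hA : fixd φ a ≠ ⊥) (hB : fixd φ b ≠ ⊥) :
    Nat.card (fixd φ a) = 4 ∧ Nat.card (fixd φ b) = 4 ∧ fixd φ a ⊓ fixd φ b = ⊥ ∧
      ∀ v, ∃ α ∈ fixd φ a, ∃ β ∈ fixd φ b, v = α * β := by
  have four : ∀ {g : S}, g ^ 3 = 1 → g ≠ 1 → fixd φ g ≠ ⊥ → Nat.card (fixd φ g) = 4 := fun h3 h1 hne =>
    (card_fixd φ hinj hV h3 h1).resolve_left fun h => hne (Subgroup.card_eq_one.1 h)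
  have hA4 := four P.a3 P.a1 hA
  have hB4 := four P.b3 P.b1 hB
  have hZ : fixd φ a ⊓ fixd φ b = ⊥ := by
    by_contra hne
    obtain ⟨z, ⟨hza, hzb⟩, hz1⟩ := (Subgroup.bot_or_exists_ne_one _).resolve_left hne
    have hle : fixd φ a ≤ fixd φ b := by
      intro w hw
      rw [mem_fixd]
      by_contra hbw
      have hw1 : w ≠ 1 := fun h => hbw (by rw [h, map_one])
      have hwz : w ≠ z := fun h => hbw (by rw [h]; exact hzb)
      have hmem : φ b w ∈ fixd φ a := fixd_conj φ P.comm.symm hw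
      have hzw1 : z * w ≠ 1 := fun h => hwz (by rw [mul_eq_one_iff_eq_inv] at h; rw [h, inv_eq_iff_mul_eq_one.2]; rw [← pow_two, h2])
      rcases four_cases hA4 hza hw (mul_mem hza hw) hmem hz1 hw1 hzw1 (Ne.symm hwz)
        (fun h => hw1 (left_eq_mul.1 h)) (fun h => hz1 (right_eq_mul.1 h)) with h | h | h | h
      · exact hw1 ((φ b).injective (h.trans (map_one _).symm))
      · exact hwz ((φ b).injective (h.trans hzb.symm))
      · exact hbw h
      · refine hbw ?_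
        have h' : φ b (φ b w) = w := by
          rw [h, map_mul, h, (mem_fixd φ).1 hzb, ← mul_assoc, ← pow_two, h2, one_mul]
        have h3 : φ b (φ b (φ b w)) = w := by
          rw [← act_mul, ← act_mul, ← pow_three' b, P.b3, act_one]
        rw [h'] at h3
        exact h3
    have heq : fixd φ a = fixd φ b := Subgroup.eq_of_le_of_card_ge hle (by rw [hA4, hB4])
    have hin : ∀ {g : S}, g ^ 3 = 1 → g ≠ 1 → fixd φ a ≤ fixd φ g → fixd φ g ≤ fixd φ a := by
      intro g h3 h1 h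
      refine (Subgroup.eq_of_le_of_card_ge h ?_).ge
      rw [four h3 h1 (fun e => hA (le_bot_iff.1 (e ▸ h))), hA4]
    refine P.a1 (eq_one_of_fixd_top φ hinj fun v => mem_of_traces φ h2 P.a3 P.b3 P.comm _ (tr_mem φ P.a3)
      (fun v => heq ▸ tr_mem φ P.b3 v) (hin ?_ P.ab fun w hw => ?_) (hin ?_ P.ab' fun w hw => ?_) v)
    · rw [Commute.mul_pow (show Commute a b from P.comm), P.a3, P.b3, one_mul]
    · rw [mem_fixd, act_mul, (mem_fixd φ).1 (hle hw), (mem_fixd φ).1 hw]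
    · rw [Commute.mul_pow (Commute.inv_right (show Commute a b from P.comm)), P.a3, inv_pow, P.b3, inv_one, one_mul]
    · rw [mem_fixd, act_mul, (mem_fixd φ).1 (show w ∈ fixd φ b⁻¹ by rw [fixd_inv]; exact hle hw), (mem_fixd φ).1 hw]
  refine ⟨hA4, hB4, hZ, fun v => ?_⟩
  let f : fixd φ a × fixd φ b → V := fun z => (z.1 : V) * z.2
  have hf : Function.Bijective f := by
    refine (Nat.bijective_iff_injective_and_card f).2 ⟨fun z z' h => ?_, by rw [Nat.card_prod, hA4, hB4, hV]⟩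
    have e : (z'.1 : V)⁻¹ * z.1 = z'.2 * (z.2 : V)⁻¹ := by
      rw [eq_mul_inv_iff_mul_eq, mul_assoc, show (z.1 : V) * z.2 = z'.1 * z'.2 from h, inv_mul_cancel_left]
    have h1 : (z'.1 : V)⁻¹ * z.1 ∈ fixd φ a ⊓ fixd φ b :=
      Subgroup.mem_inf.2 ⟨mul_mem (inv_mem z'.1.2) z.1.2, e ▸ mul_mem z'.2.2 (inv_mem z.2.2)⟩
    rw [hZ, Subgroup.mem_bot] at h1
    refine Prod.ext (Subtype.ext (inv_mul_eq_one.1 h1).symm) (Subtype.ext ?_)
    exact (mul_inv_eq_one.1 (e.symm.trans h1)).symm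
  obtain ⟨z, hz⟩ := hf.2 v
  exact ⟨z.1, z.1.2, z.2, z.2.2, hz.symm⟩

/-- One side: an involution centralising `b` and inverting `a`. -/
theorem side {a b t : S} (hinj : Function.Injective φ) (h2 : ∀ v : V, v ^ 2 = 1)
    (b3 : b ^ 3 = 1) (t2 : t * t = 1) (t1 : t ≠ 1)
    (tb : t * b = b * t) (ta : t * a = a⁻¹ * t) (hA4 : Nat.card (fixd φ a) = 4)
    (hB4 : Nat.card (fixd φ b) = 4) (hcab : a * b = b * a) (hZ : fixd φ a ⊓ fixd φ b = ⊥)
    (hdec : ∀ v, ∃ α ∈ fixd φ a, ∃ β ∈ fixd φ b, v = α * β) :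
    (∀ α ∈ fixd φ a, φ t α = α) ∧
      (∀ v, v * φ t v ∈ fixd φ b ⊓ fixd φ t) ∧
      ∃ w, w ≠ 1 ∧ (∀ x ∈ fixd φ b ⊓ fixd φ t, x = 1 ∨ x = w) ∧ ∃ v, w = v * φ t v := by
  have tfix : ∀ α ∈ fixd φ a, φ t α = α := by
    intro α hα
    by_cases hα1 : α = 1
    · rw [hα1, map_one]
    have hb3 : ∀ w, φ b (φ b (φ b w)) = w := fun w => by
      rw [← act_mul, ← act_mul, ← pow_three' b, b3, act_one]
    have hbα : φ b α ∈ fixd φ a := fixd_conj φ hcab.symm hα
    have hbbα : φ b (φ b α) ∈ fixd φ a := fixd_conj φ hcab.symm hbα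
    have hne : φ b α ≠ α := fun h => hα1 (Subgroup.mem_bot.1 (hZ ▸ ⟨hα, h⟩))
    have htα : φ t α ∈ fixd φ a := fixd_inv φ a ▸ fixd_conj φ ta hα
    have tt : ∀ w, φ t (φ t w) = w := fun w => by rw [← act_mul, t2, act_one]
    rcases four_cases hA4 hα hbα hbbα htα hα1 ((map_ne_one_iff _ (φ b).injective).2 hα1)
      ((map_ne_one_iff _ (φ b).injective).2 ((map_ne_one_iff _ (φ b).injective).2 hα1)) (Ne.symm hne)
      (fun h => hne (by conv_lhs => rw [h, hb3])) (fun h => hne ((φ b).injective h).symm) with h | h | h | h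
    · exact absurd ((φ t).injective (h.trans (map_one _).symm)) hα1
    · exact h
    · exfalso
      have e := tt α
      rw [h, act_comm φ tb, h] at e
      exact hne (by conv_lhs => rw [← e, hb3])
    · exfalso
      have e := tt α
      rw [h, act_comm φ tb, act_comm φ tb, h, hb3] at e
      exact hne e
  have hmem : ∀ v, v * φ t v ∈ fixd φ b ⊓ fixd φ t := by
    intro v
    obtain ⟨α, hα, β, hβ, rfl⟩ := hdec v
    refine ⟨?_, ?_⟩
    · rw [map_mul, tfix α hα, show α * β * (α * φ t β) = (α * α) * (β * φ t β) by ac_rfl, ← pow_two, h2,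
        one_mul]
      exact mul_mem hβ (fixd_conj φ tb hβ)
    · show φ t (α * β * φ t (α * β)) = α * β * φ t (α * β)
      rw [map_mul, ← act_mul, t2, act_one, mul_comm]
  refine ⟨tfix, hmem, ?_⟩
  obtain ⟨v₀, hv₀⟩ : ∃ v, φ t v ≠ v := by
    by_contra h
    push Not at h
    exact t1 (eq_one_of_fixd_top φ hinj h)
  refine ⟨v₀ * φ t v₀, fun h => hv₀ ?_, fun x hx => ?_, v₀, rfl⟩
  · rw [mul_eq_one_iff_eq_inv] at h
    conv_rhs => rw [h, inv_eq_iff_mul_eq_one.2 (show φ t v₀ * φ t v₀ = 1 by rw [← pow_two, h2])]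
  · by_contra hne
    push Not at hne
    obtain ⟨hx1, hxw⟩ := hne
    obtain ⟨hwb, hwt⟩ := hmem v₀
    set w := v₀ * φ t v₀ with hw
    have hw1 : w ≠ 1 := fun h => hv₀ (by
      rw [hw, mul_eq_one_iff_eq_inv] at h
      conv_rhs => rw [h, inv_eq_iff_mul_eq_one.2 (show φ t v₀ * φ t v₀ = 1 by rw [← pow_two, h2])])
    have hxw' : x * w ≠ 1 := fun h => hxw (by
      rw [mul_eq_one_iff_eq_inv] at h
      rw [h, inv_eq_iff_mul_eq_one.2 (show w * w = 1 by rw [← pow_two, h2])])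
    apply t1
    refine eq_one_of_fixd_top φ hinj fun v => ?_
    obtain ⟨α, hα, β, hβ, rfl⟩ := hdec v
    refine mul_mem (tfix α hα) ?_
    rcases four_cases hB4 hx.1 hwb (mul_mem hx.1 hwb) hβ hx1 hw1 hxw' hxw
      (fun h => hw1 (left_eq_mul.1 h)) (fun h => hx1 (right_eq_mul.1 h)) with h | h | h | h <;> subst h
    · exact one_mem _
    · exact hx.2
    · exact hwt
    · exact mul_mem hx.2 hwt

/-- The facts about three commuting involutions used for the section. -/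
theorem triple {a b t s u g h : S} (P : Pair a b t s) (hinj : Function.Injective φ) (hV : Nat.card V = 16)
    (h2 : ∀ v : V, v ^ 2 = 1) (hA : fixd φ a ≠ ⊥) (hB : fixd φ b ≠ ⊥)
    (tu : t * u = u * t) (su : s * u = u * s) (gt : g * t = t * g) (gs : g * s = u * g)
    (ht : h * t = s * h) (hs : h * s = u * h) :
    ∃ W : Subgroup V, Nat.card W = 4 ∧ W ≤ fixd φ t ∧ W ≤ fixd φ s ∧ W ≤ fixd φ u ∧
      fixd φ t ⊓ fixd φ s ≤ W ∧ fixd φ t ⊓ fixd φ u ≤ W ∧ fixd φ s ⊓ fixd φ u ≤ W ∧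
      fixd φ b ⊓ fixd φ t ≤ W ∧ fixd φ a ⊓ fixd φ s ≤ W ∧ ∀ v, v * φ u v ∈ W := by
  obtain ⟨hA4, hB4, hZ, hdec⟩ := P.decomp φ hinj hV h2 hA hB
  obtain ⟨tA, tmem, wt, hwt1, hwt, vt, hvt⟩ :=
    side φ hinj h2 P.b3 P.t2 P.t1 P.tb P.ta hA4 hB4 P.comm hZ hdec
  obtain ⟨sB, smem, ws, hws1, hws, vs, hvs⟩ :=
    side φ (a := b) (b := a) hinj h2 P.a3 P.s2 P.s1 P.sa P.sb hB4 hA4 P.comm.symm (by rw [inf_comm]; exact hZ)
      (fun v => by obtain ⟨α, hα, β, hβ, e⟩ := hdec v; exact ⟨β, hβ, α, hα, by rw [e, mul_comm]⟩)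
  set W := fixd φ t ⊓ fixd φ s with hW
  have wtW : wt ∈ W := ⟨(hvt ▸ tmem vt).2, sB _ (hvt ▸ tmem vt).1⟩
  have wsW : ws ∈ W := ⟨tA _ (hvs ▸ smem vs).1, (hvs ▸ smem vs).2⟩
  have bW : fixd φ b ⊓ fixd φ t ≤ W := fun x hx => ⟨hx.2, sB _ hx.1⟩
  have aW : fixd φ a ⊓ fixd φ s ≤ W := fun x hx => ⟨tA _ hx.1, hx.2⟩
  have hsplit : ∀ x ∈ W, ∃ p q, (p = 1 ∨ p = ws) ∧ (q = 1 ∨ q = wt) ∧ x = p * q := by
    intro x hx
    obtain ⟨α, hα, β, hβ, rfl⟩ := hdec x
    have h1 : φ t β = β := by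
      have := (mem_fixd φ).1 hx.1
      rw [map_mul, tA α hα] at this
      exact mul_left_cancel this
    have h1' : φ s α = α := by
      have := (mem_fixd φ).1 hx.2
      rw [map_mul, sB β hβ] at this
      exact mul_right_cancel this
    exact ⟨α, β, hws α ⟨hα, h1'⟩, hwt β ⟨hβ, h1⟩, rfl⟩
  have hne : ws ≠ wt := fun e => hws1 (Subgroup.mem_bot.1 (hZ ▸
    ⟨(hvs ▸ smem vs).1, e ▸ (hvt ▸ tmem vt).1⟩))
  -- the third involution
  have uwt : φ u wt = wt := by
    have hmem : φ u wt ∈ fixd φ b ⊓ fixd φ t := by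
      rw [hvt, map_mul, ← act_comm φ tu]; exact tmem _
    exact (hwt _ hmem).resolve_left fun e => hwt1 ((φ u).injective (e.trans (map_one _).symm))
  have uws : φ u ws = ws := by
    have hmem : φ u ws ∈ fixd φ a ⊓ fixd φ s := by
      rw [hvs, map_mul, ← act_comm φ su]; exact smem _
    exact (hws _ hmem).resolve_left fun e => hws1 ((φ u).injective (e.trans (map_one _).symm))
  have huW : W ≤ fixd φ u := by
    intro x hx
    obtain ⟨p, q, hp, hq, rfl⟩ := hsplit x hx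
    refine mul_mem ?_ ?_
    · rcases hp with rfl | rfl
      · exact one_mem _
      · exact uws
    · rcases hq with rfl | rfl
      · exact one_mem _
      · exact uwt
  have umem : ∀ v, v * φ u v ∈ W := by
    intro v
    have key : ∀ r : S, r * u = u * r → (∀ v, v * φ r v ∈ W) → φ r (v * φ u v) = v * φ u v := by
      intro r hr hrW
      have e1 : φ u (v * φ r v) = v * φ r v := huW (hrW v)
      rw [map_mul] at e1 ⊢
      rw [act_comm φ hr]
      calc φ r v * φ u (φ r v) = (v * φ r v) * (v * φ r v) * (φ r v * φ u (φ r v)) := by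
            rw [← pow_two, h2, one_mul]
        _ = v * φ r v * (v * (φ r v * φ r v) * φ u (φ r v)) := by ac_rfl
        _ = φ u v * φ u (φ r v) * (v * φ u (φ r v)) := by rw [← pow_two (φ r v), h2, mul_one, ← e1]
        _ = v * φ u v * (φ u (φ r v) * φ u (φ r v)) := by ac_rfl
        _ = v * φ u v := by rw [← pow_two (φ u (φ r v)), h2, mul_one]
    exact ⟨key t tu fun v => bW (tmem v), key s su fun v => aW (smem v)⟩
  -- images of the pair
  have pairW : ∀ {k r r' : S}, k * t = r * k → k * s = r' * k → (∀ v, v * φ r v ∈ W) → (∀ v, v * φ r' v ∈ W) →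
      fixd φ r ⊓ fixd φ r' ≤ W := by
    intro k r r' ek ek' hr hr' x hx
    have hx' : φ k⁻¹ x ∈ W := by
      refine ⟨fixd_conj φ ?_ hx.1, fixd_conj φ ?_ hx.2⟩
      · rw [eq_mul_inv_iff_mul_eq, mul_assoc, ← ek, inv_mul_cancel_left]
      · rw [eq_mul_inv_iff_mul_eq, mul_assoc, ← ek', inv_mul_cancel_left]
    rw [show x = φ k (φ k⁻¹ x) by rw [← act_mul, mul_inv_cancel, act_one]]
    obtain ⟨p, q, hp, hq, e⟩ := hsplit _ hx'
    rw [e, map_mul]
    refine mul_mem ?_ ?_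
    · rcases hp with rfl | rfl
      · rw [map_one]; exact one_mem _
      · rw [hvs, map_mul, ← act_mul, ek', act_mul]; exact hr' _
    · rcases hq with rfl | rfl
      · rw [map_one]; exact one_mem _
      · rw [hvt, map_mul, ← act_mul, ek, act_mul]; exact hr _
  refine ⟨W, ?_, inf_le_left, inf_le_right, huW, le_rfl,
    pairW gt gs (fun v => bW (tmem v)) umem, pairW ht hs (fun v => aW (smem v)) umem, bW, aW, umem⟩
  classical
  refine le_antisymm ?_ ?_
  · have : (W : Set V) ⊆ ↑({1, ws, wt, ws * wt} : Finset V) := by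
      intro x hx
      obtain ⟨p, q, hp, hq, rfl⟩ := hsplit x hx
      rcases hp with rfl | rfl <;> rcases hq with rfl | rfl <;> simp
    calc Nat.card W = (W : Set V).ncard := rfl
      _ ≤ ({1, ws, wt, ws * wt} : Finset V).card := by
          rw [← Set.ncard_coe_finset]; exact Set.ncard_le_ncard this (Finset.finite_toSet _)
      _ ≤ 4 := Finset.card_le_four
  · let f : Fin 4 → W := ![1, ⟨ws, wsW⟩, ⟨wt, wtW⟩, ⟨ws, wsW⟩ * ⟨wt, wtW⟩]
    have hf : Function.Injective f := by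
      have h3 : ws * wt ≠ 1 := fun e => hne (by
        rw [mul_eq_one_iff_eq_inv] at e
        rw [e, inv_eq_iff_mul_eq_one.2 (show wt * wt = 1 by rw [← pow_two, h2])])
      intro i j e
      fin_cases i <;> fin_cases j <;> simp [f, Subtype.ext_iff, hws1, hwt1, hne, h3, Ne.symm hws1, Ne.symm hwt1,
        Ne.symm hne, Ne.symm h3] at e ⊢
    simpa using Nat.card_le_card_of_injective f hf

/-- Suitable elements of the symmetric group of degree six. -/
theorem exists_data (φ : Perm (Fin 6) →* MulAut V) (hinj : Function.Injective φ) (hV : Nat.card V = 16)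
    (h2 : ∀ v : V, v ^ 2 = 1) :
    ∃ a b t s u g h : Perm (Fin 6), Pair a b t s ∧ fixd φ a ≠ ⊥ ∧ fixd φ b ≠ ⊥ ∧
      t * u = u * t ∧ s * u = u * s ∧ g * t = t * g ∧ g * s = u * g ∧ h * t = s * h ∧ h * s = u * h ∧
      (g * h) * t = u * (g * h) ∧
      Function.Injective (fun c : Bool × Bool × Bool =>
        (if c.1 then t else 1) * (if c.2.1 then s else 1) * (if c.2.2 then u else 1)) := by
  let a₁ : Perm (Fin 6) := swap 0 1 * swap 1 2
  let b₁ : Perm (Fin 6) := swap 3 4 * swap 4 5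
  have hP : Pair a₁ b₁ (swap 0 1) (swap 3 4) := by
    constructor <;> decide +kernel
  by_cases hab : fixd φ (a₁ * b₁) = ⊥
  · have hab' : fixd φ (a₁ * b₁⁻¹) = ⊥ := by
      rw [eq_bot_iff]
      intro v hv
      have h := fixd_conj φ (g' := (a₁ * b₁)⁻¹) (t := swap 0 1) (by decide +kernel) hv
      rw [fixd_inv, hab, Subgroup.mem_bot] at h
      exact Subgroup.mem_bot.2 ((φ _).injective (h.trans (map_one _).symm))
    have hU : ∀ U : Subgroup V, (∀ v, tr φ a₁ v ∈ U) → (∀ v, tr φ b₁ v ∈ U) → ∀ v, v ∈ U := fun U ua ub =>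
      mem_of_traces φ h2 hP.a3 hP.b3 hP.comm U ua ub (fun v hv => by rw [hab] at hv; exact (bot_le : ⊥ ≤ U) hv)
        fun v hv => by rw [hab'] at hv; exact (bot_le : ⊥ ≤ U) hv
    refine ⟨a₁, b₁, swap 0 1, swap 3 4, swap 2 5, swap 3 2 * swap 4 5,
      (swap 0 3 * swap 3 2) * (swap 1 4 * swap 4 5), hP, fun hA => hP.b1 ?_, fun hB => hP.a1 ?_, ?_⟩
    · refine eq_one_of_fixd_top φ hinj (hU _ (fun v => ?_) (tr_mem φ hP.b3))
      have := tr_mem φ hP.a3 v
      rw [hA, Subgroup.mem_bot] at this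
      rw [this]; exact one_mem _
    · refine eq_one_of_fixd_top φ hinj (hU _ (tr_mem φ hP.a3) fun v => ?_)
      have := tr_mem φ hP.b3 v
      rw [hB, Subgroup.mem_bot] at this
      rw [this]; exact one_mem _
    · decide +kernel
  · refine ⟨a₁ * b₁⁻¹, a₁ * b₁, swap 0 3 * swap 1 4 * swap 2 5, swap 0 3 * swap 1 5 * swap 2 4,
      swap 0 3 * swap 1 2 * swap 4 5, swap 2 5, swap 2 4 * swap 4 5, ?_, fun h => hab ?_, hab, ?_⟩
    · constructor <;> decide +kernel
    · rw [eq_bot_iff]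
      intro v hv
      have h' := fixd_conj φ (g' := (a₁ * b₁⁻¹)⁻¹) (t := swap 0 1) (by decide +kernel) hv
      rw [fixd_inv, h, Subgroup.mem_bot] at h'
      exact Subgroup.mem_bot.2 ((φ _).injective (h'.trans (map_one _).symm))
    · decide +kernel

end Module

section Extension

/-- An elementary abelian normal subgroup of order sixteen with a faithful action of the symmetric
group of degree six in the quotient gives an elementary abelian section of order thirty two. -/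
theorem exists_section {Y : Type*} [Group Y] [Finite Y] (V : Subgroup Y) [V.Normal]
    (hcomm : ∀ x ∈ V, ∀ y ∈ V, x * y = y * x) (h2 : ∀ x ∈ V, x * x = 1) (hV : Nat.card V = 16)
    (hC : ∀ y : Y, (∀ x ∈ V, y * x = x * y) → y ∈ V)
    (ψ : Perm (Fin 6) →* Y ⧸ V) (hψ : Function.Injective ψ) :
    ∃ (H : Subgroup Y) (N : Subgroup H), N.Normal ∧ 32 ≤ N.index ∧
      (∀ x y : H, x⁻¹ * y⁻¹ * x * y ∈ N) ∧ ∀ x : H, x * x ∈ N := by
  classical
  haveI : IsMulCommutative V := ⟨⟨fun x y => Subtype.ext (hcomm x x.2 y y.2)⟩⟩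
  letI : CommGroup V :=
    { (inferInstance : Group V) with mul_comm := fun x y => Subtype.ext (hcomm x x.2 y y.2) }
  have hk : V ≤ (MulAut.conjNormal (H := V)).ker := fun y hy => MulEquiv.ext fun x => Subtype.ext (by
    rw [MulAut.conjNormal_apply, hcomm y hy x x.2, mul_inv_cancel_right]; rfl)
  let χ : Y ⧸ V →* MulAut V := QuotientGroup.lift V MulAut.conjNormal hk
  have hχ : Function.Injective χ := by
    rw [injective_iff_map_eq_one]
    intro q
    induction q using QuotientGroup.induction_on with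
    | _ y =>
      intro hy
      rw [QuotientGroup.eq_one_iff]
      refine hC y fun x hx => ?_
      have h : MulAut.conjNormal y (⟨x, hx⟩ : V) = (⟨x, hx⟩ : V) := DFunLike.congr_fun hy ⟨x, hx⟩
      exact mul_inv_eq_iff_eq_mul.1 (congrArg Subtype.val h)
  let φ : Perm (Fin 6) →* MulAut V := χ.comp ψ
  have hinj : Function.Injective φ := hχ.comp hψ
  have h2' : ∀ v : V, v ^ 2 = 1 := fun v => Subtype.ext (by simpa [pow_two] using h2 v v.2)
  have hval : ∀ (y : Y) (g : Perm (Fin 6)), (y : Y ⧸ V) = ψ g → ∀ v : V, y * v * y⁻¹ = (φ g v : Y) := by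
    intro y g e v
    show _ = ((χ (ψ g)) v : Y)
    rw [← e]
    rfl
  obtain ⟨a, b, t, s, u, g, h, P, hA, hB, tu, su, gt, gs, ht, hs, ku, hinj8⟩ := exists_data φ hinj hV h2'
  obtain ⟨W, hW4, hWt, hWs, hWu, hts, htu, hsu, hbt, has, humem⟩ :=
    triple φ P hinj hV h2' hA hB tu su gt gs ht hs
  -- lifts of commuting pairs
  have lift : ∀ (r c : Perm (Fin 6)), r * r = 1 → c ^ 3 = 1 → r * c = c * r → fixd φ c ⊓ fixd φ r ≤ W →
      ∃ x : Y, (x : Y ⧸ V) = ψ r ∧ ∃ w ∈ W, x * x = (w : Y) := by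
    intro r c hr hc hrc hW'
    obtain ⟨x₀, hx₀⟩ := QuotientGroup.mk_surjective (ψ r)
    obtain ⟨c₀, hc₀⟩ := QuotientGroup.mk_surjective (ψ c)
    -- a lift of order dividing three
    obtain ⟨cc, hcc, hcc3⟩ : ∃ cc : Y, (cc : Y ⧸ V) = ψ c ∧ cc ^ 3 = 1 := by
      refine ⟨c₀ ^ 4, by rw [QuotientGroup.mk_pow, hc₀, ← map_pow, pow_succ, hc, one_mul], ?_⟩
      have hmem : c₀ ^ 3 ∈ V := by
        rw [← QuotientGroup.eq_one_iff, QuotientGroup.mk_pow, hc₀, ← map_pow, hc, map_one]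
      rw [← pow_mul, show 4 * 3 = 3 * (2 * 2) by rfl, pow_mul, pow_mul, pow_two (c₀ ^ 3), h2 _ hmem, one_pow]
    have hu : x₀ * cc * x₀⁻¹ * cc⁻¹ ∈ V := by
      rw [← QuotientGroup.eq_one_iff]
      simp only [QuotientGroup.mk_mul, QuotientGroup.mk_inv, hx₀, hcc]
      rw [← map_mul, hrc, map_mul, mul_inv_cancel_right, mul_inv_cancel]
    set u' := x₀ * cc * x₀⁻¹ * cc⁻¹ with hu'
    set v := cc * u' * cc⁻¹ with hv
    have hvV : v ∈ V := (inferInstance : V.Normal).conj_mem _ hu cc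
    refine ⟨v * x₀, by rw [QuotientGroup.mk_mul, (QuotientGroup.eq_one_iff v).2 hvV, one_mul, hx₀], ?_⟩
    -- the lift commutes with `cc`
    have hN : u' * (cc * u' * cc⁻¹) * (cc * (cc * u' * cc⁻¹) * cc⁻¹) = 1 := by
      have e : u' * cc = x₀ * cc * x₀⁻¹ := by rw [hu']; group
      have e3 : (u' * cc) ^ 3 = 1 := by rw [e, conj_pow, hcc3, mul_one, mul_inv_cancel]
      rw [← e3, show (u' * cc) ^ 3 = u' * (cc * u' * cc⁻¹) * (cc * (cc * u' * cc⁻¹) * cc⁻¹) * cc ^ 3 by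
        simp only [pow_succ, pow_zero, one_mul]; group, hcc3, mul_one]
    have hxc : v * x₀ * cc = cc * (v * x₀) := by
      have h1 : cc * v * cc⁻¹ ∈ V := (inferInstance : V.Normal).conj_mem _ hvV cc
      have e : v * u' = cc * v * cc⁻¹ := by
        rw [← hv] at hN
        rw [hcomm v hvV u' hu]
        calc u' * v = u' * v * ((cc * v * cc⁻¹) * (cc * v * cc⁻¹)) := by rw [h2 _ h1, mul_one]
          _ = cc * v * cc⁻¹ := by rw [← mul_assoc, hN, one_mul]
      calc v * x₀ * cc = v * u' * cc * x₀ := by rw [hu']; group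
        _ = cc * (v * x₀) := by rw [e]; group
    have hx2 : (v * x₀) * (v * x₀) ∈ V := by
      rw [← QuotientGroup.eq_one_iff, QuotientGroup.mk_mul, QuotientGroup.mk_mul,
        (QuotientGroup.eq_one_iff v).2 hvV, one_mul, hx₀, ← map_mul, hr, map_one]
    refine ⟨⟨_, hx2⟩, hW' ⟨Subtype.ext ?_, Subtype.ext ?_⟩, rfl⟩
    · rw [← hval cc c hcc]
      show cc * (v * x₀ * (v * x₀)) * cc⁻¹ = v * x₀ * (v * x₀)
      rw [← mul_assoc cc, ← hxc, mul_assoc _ cc, ← hxc]; group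
    · rw [← hval (v * x₀) r (by rw [QuotientGroup.mk_mul, (QuotientGroup.eq_one_iff v).2 hvV, one_mul, hx₀])]
      show v * x₀ * (v * x₀ * (v * x₀)) * (v * x₀)⁻¹ = v * x₀ * (v * x₀)
      group
  obtain ⟨x, hx, wx, hwx, hxsq⟩ := lift t b P.t2 P.b3 P.tb hbt
  obtain ⟨y, hy, wy, hwy, hysq⟩ := lift s a P.s2 P.a3 P.sa has
  obtain ⟨k₀, hk₀⟩ := QuotientGroup.mk_surjective (ψ (g * h))
  set z := k₀ * x * k₀⁻¹ with hz
  have hzq : (z : Y ⧸ V) = ψ u := by
    simp only [hz, QuotientGroup.mk_mul, QuotientGroup.mk_inv, hk₀, hx, ← map_mul, ← map_inv]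
    rw [ku, mul_inv_cancel_right]
  obtain ⟨wz, hwz, hzsq⟩ : ∃ w ∈ W, z * z = (w : Y) := by
    refine ⟨φ (g * h) wx, htu ?_, ?_⟩
    swap
    · rw [← hval k₀ _ hk₀, ← hxsq, hz]; group
    obtain ⟨v, hv⟩ : ∃ v : V, v = φ (g * h) wx := ⟨_, rfl⟩
    refine ⟨?_, fixd_conj φ ku (hWt hwx)⟩
    -- fixed by `t` too
    have hp : φ (g * h) wx = φ g (φ h wx) := act_mul φ g h wx
    rw [hp]
    exact fixd_conj φ gt (hsu ⟨fixd_conj φ ht (hWt hwx), fixd_conj φ hs (hWs hwx)⟩ |> hWt)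
  -- commutators of lifts
  have comm : ∀ {p p' : Y} {r r' : Perm (Fin 6)}, (p : Y ⧸ V) = ψ r → (p' : Y ⧸ V) = ψ r' →
      r * r' = r' * r → (∀ w ∈ W, φ r w = w) → (∀ w ∈ W, φ r' w = w) → fixd φ r ⊓ fixd φ r' ≤ W →
      (∃ w ∈ W, p * p = (w : Y)) → (∃ w ∈ W, p' * p' = (w : Y)) →
      ∃ w ∈ W, p' * p * p'⁻¹ * p⁻¹ = (w : Y) := by
    rintro p p' r r' hp hp' hrr hfr hfr' hW' ⟨w, hw, hwp⟩ ⟨w', hw', hwp'⟩
    have hc : p' * p * p'⁻¹ * p⁻¹ ∈ V := by
      rw [← QuotientGroup.eq_one_iff]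
      simp only [QuotientGroup.mk_mul, QuotientGroup.mk_inv, hp, hp']
      rw [← map_mul, ← hrr, map_mul, mul_inv_cancel_right, mul_inv_cancel]
    set c := p' * p * p'⁻¹ * p⁻¹ with hcdef
    have e1 : c * (p * c * p⁻¹) = 1 := by
      have h1 : p' * (p * p) * p'⁻¹ = p * p := by
        rw [hwp, hval p' r' hp' w, hfr' w hw]
      calc c * (p * c * p⁻¹) = (c * p) * (c * p) * (p * p)⁻¹ := by group
        _ = p' * (p * p) * p'⁻¹ * (p * p)⁻¹ := by rw [hcdef]; group
        _ = 1 := by rw [h1, mul_inv_cancel]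
    have e2 : c * (p' * c * p'⁻¹) = 1 := by
      have h1 : p * (p' * p') * p⁻¹ = p' * p' := by
        rw [hwp', hval p r hp w', hfr w' hw']
      calc c * (p' * c * p'⁻¹) = c * (p' * (p' * p) * p'⁻¹ * p⁻¹ * p'⁻¹) := by rw [hcdef]; group
        _ = p' * p * p'⁻¹ * p⁻¹ * ((p' * p') * p * (p' * p')⁻¹ * (p' * p⁻¹ * p'⁻¹)) := by rw [hcdef]; group
        _ = p' * p * p'⁻¹ * p⁻¹ * ((p * (p' * p') * p⁻¹) * p * (p' * p')⁻¹ * (p' * p⁻¹ * p'⁻¹)) := by rw [h1]
        _ = 1 := by group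
    refine ⟨⟨c, hc⟩, hW' ⟨Subtype.ext ?_, Subtype.ext ?_⟩, rfl⟩
    · rw [← hval p r hp]
      show p * c * p⁻¹ = c
      rw [eq_inv_of_mul_eq_one_right e1, inv_eq_iff_mul_eq_one, h2 _ hc]
    · rw [← hval p' r' hp']
      show p' * c * p'⁻¹ = c
      rw [eq_inv_of_mul_eq_one_right e2, inv_eq_iff_mul_eq_one, h2 _ hc]
  -- the section
  set T : Set Y := (V : Set Y) ∪ {x, y, z} with hT
  set H := Subgroup.closure T with hH
  set WY : Subgroup Y := W.map V.subtype with hWY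
  have hVH : V ≤ H := fun v hv => Subgroup.subset_closure (Or.inl hv)
  have hWcen : ∀ w ∈ WY, ∀ d ∈ H, d * w = w * d := by
    rintro _ ⟨w, hw, rfl⟩
    have : H ≤ Subgroup.centralizer {((w : V) : Y)} := by
      rw [hH, Subgroup.closure_le]
      intro d hd
      rw [SetLike.mem_coe, Subgroup.mem_centralizer_singleton_iff]
      rcases hd with hd | hd
      · exact hcomm d hd w w.2
      · have key : ∀ (p : Y) (r : Perm (Fin 6)), (p : Y ⧸ V) = ψ r → φ r w = w → p * (w : Y) = w * p := by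
          intro p r hp hf
          rw [← mul_inv_eq_iff_eq_mul, hval p r hp, hf]
        rcases hd with rfl | rfl | rfl
        · exact key _ t hx (hWt hw)
        · exact key _ s hy (hWs hw)
        · exact key _ u hzq (hWu hw)
    exact fun d hd => Subgroup.mem_centralizer_singleton_iff.1 (this hd)
  have hWH : WY ≤ H := fun w hw => by
    obtain ⟨w, -, rfl⟩ := hw; exact hVH w.2
  set N : Subgroup H := WY.subgroupOf H with hN
  haveI hNn : N.Normal := ⟨fun w hw d => by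
    rw [hN, Subgroup.mem_subgroupOf] at hw ⊢
    have e := hWcen _ hw d d.2
    show (d : Y) * w * (d : Y)⁻¹ ∈ WY
    rw [e, mul_inv_cancel_right]; exact hw⟩
  let q : H →* H ⧸ N := QuotientGroup.mk' N
  set T' : Set (H ⧸ N) := q '' ((Subgroup.subtype H) ⁻¹' T) with hT'
  have hgen : Subgroup.closure T' = ⊤ := by
    rw [hT', ← MonoidHom.map_closure, show (Subgroup.subtype H) ⁻¹' T = ((↑) : H → Y) ⁻¹' T from rfl,
      Subgroup.closure_closure_coe_preimage, Subgroup.map_top_of_surjective _ (QuotientGroup.mk'_surjective N)]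
  have hqeq : ∀ {d : H}, (d : Y) ∈ WY → q d = 1 := fun {d} hd =>
    (QuotientGroup.eq_one_iff d).2 (Subgroup.mem_subgroupOf.2 hd)
  have inW : ∀ {d : Y}, (∃ w ∈ W, d = ((w : V) : Y)) → d ∈ WY := fun ⟨w, hw, e⟩ => ⟨w, hw, e.symm⟩
  -- the commutator relations on generators
  have hgcomm : ∀ d ∈ T, ∀ d' ∈ T, d * d' * d⁻¹ * d'⁻¹ ∈ WY := by
    have sym : ∀ {d d' : Y}, d * d' * d⁻¹ * d'⁻¹ ∈ WY → d' * d * d'⁻¹ * d⁻¹ ∈ WY := fun {d d'} h => by
      rw [show d' * d * d'⁻¹ * d⁻¹ = (d * d' * d⁻¹ * d'⁻¹)⁻¹ by group]; exact inv_mem h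
    have vv : ∀ v ∈ V, ∀ v' ∈ V, v * v' * v⁻¹ * v'⁻¹ ∈ WY := fun v hv v' hv' => by
      rw [hcomm v hv v' hv', mul_inv_cancel_right, mul_inv_cancel]; exact one_mem _
    have self : ∀ d : Y, d * d * d⁻¹ * d⁻¹ ∈ WY := fun d => by simp
    have vp : ∀ (p : Y) (r : Perm (Fin 6)), (p : Y ⧸ V) = ψ r → (∀ v, v * φ r v ∈ W) → ∀ v ∈ V,
        p * v * p⁻¹ * v⁻¹ ∈ WY := fun p r hp hr v hv => inW ⟨⟨v, hv⟩ * φ r ⟨v, hv⟩, hr _, by
      rw [show p * v * p⁻¹ = _ from hval p r hp ⟨v, hv⟩,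
        show v⁻¹ = v from inv_eq_of_mul_eq_one_right (h2 v hv)]
      show ((φ r ⟨v, hv⟩ : V) : Y) * v = ((⟨v, hv⟩ * φ r ⟨v, hv⟩ : V) : Y)
      rw [Subgroup.coe_mul, hcomm v hv _ (SetLike.coe_mem _)]⟩
    obtain ⟨tA, tmem, -⟩ : (∀ α ∈ fixd φ a, φ t α = α) ∧ (∀ v, v * φ t v ∈ fixd φ b ⊓ fixd φ t) ∧ True := by
      obtain ⟨hA4, hB4, hZ, hdec⟩ := P.decomp φ hinj hV h2' hA hB
      exact ⟨(side φ hinj h2' P.b3 P.t2 P.t1 P.tb P.ta hA4 hB4 P.comm hZ hdec).1,
        (side φ hinj h2' P.b3 P.t2 P.t1 P.tb P.ta hA4 hB4 P.comm hZ hdec).2.1, trivial⟩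
    have smem : ∀ v, v * φ s v ∈ fixd φ a ⊓ fixd φ s := by
      obtain ⟨hA4, hB4, hZ, hdec⟩ := P.decomp φ hinj hV h2' hA hB
      exact (side φ (a := b) (b := a) hinj h2' P.a3 P.s2 P.s1 P.sa P.sb hB4 hA4 P.comm.symm
        (by rw [inf_comm]; exact hZ) (fun v => by
          obtain ⟨α, hα, β, hβ, e⟩ := hdec v; exact ⟨β, hβ, α, hα, by rw [e, mul_comm]⟩)).2.1
    have vx := vp x t hx fun v => hbt (tmem v)
    have vy := vp y s hy fun v => has (smem v)
    have vz := vp z u hzq humem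
    have xy := inW (comm hx hy P.ts (fun w hw => hWt hw) (fun w hw => hWs hw) hts ⟨wx, hwx, hxsq⟩ ⟨wy, hwy, hysq⟩)
    have xz := inW (comm hx hzq tu (fun w hw => hWt hw) (fun w hw => hWu hw) htu ⟨wx, hwx, hxsq⟩ ⟨wz, hwz, hzsq⟩)
    have yz := inW (comm hy hzq su (fun w hw => hWs hw) (fun w hw => hWu hw) hsu ⟨wy, hwy, hysq⟩ ⟨wz, hwz, hzsq⟩)
    rintro d (hd | hd | hd | hd) d' (hd' | hd' | hd' | hd')
    · exact vv d hd d' hd'
    · subst hd'; exact sym (vx d hd)
    · subst hd'; exact sym (vy d hd)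
    · obtain rfl : d' = z := hd'; exact sym (vz d hd)
    · subst hd; exact vx d' hd'
    · subst hd hd'; exact self _
    · subst hd hd'; exact sym xy
    · subst hd; obtain rfl : d' = z := hd'; exact sym xz
    · subst hd; exact vy d' hd'
    · subst hd hd'; exact xy
    · subst hd hd'; exact self _
    · subst hd; obtain rfl : d' = z := hd'; exact sym yz
    · obtain rfl : d = z := hd; exact vz d' hd'
    · obtain rfl : d = z := hd; subst hd'; exact xz
    · obtain rfl : d = z := hd; subst hd'; exact yz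
    · obtain rfl : d = z := hd; obtain rfl : d' = z := hd'; exact self _
  have hab : ∀ a b : H ⧸ N, a * b = b * a := by
    intro a b
    have hc := Subgroup.isMulCommutative_closure (k := T') (by
      rintro _ ⟨d, hd, rfl⟩ _ ⟨d', hd', rfl⟩
      have h1 : q (d * d' * d⁻¹ * d'⁻¹) = 1 := hqeq (hgcomm _ hd _ hd')
      simp only [map_mul, map_inv] at h1
      rwa [mul_inv_eq_one, mul_inv_eq_iff_eq_mul] at h1)
    exact congrArg Subtype.val (mul_comm' (⟨a, hgen ▸ Subgroup.mem_top a⟩ : Subgroup.closure T')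
      ⟨b, hgen ▸ Subgroup.mem_top b⟩)
  refine ⟨H, N, hNn, ?_, fun p p' => ?_, fun p => ?_⟩
  · have hker : WY.subgroupOf H = N := rfl
    have h128 : 128 ≤ Nat.card H := by
      let el : Bool × Bool × Bool → Y := fun c =>
        (if c.1 then x else 1) * (if c.2.1 then y else 1) * (if c.2.2 then z else 1)
      have hel : ∀ c, (el c : Y ⧸ V) = ψ ((if c.1 then t else 1) * (if c.2.1 then s else 1) *
          (if c.2.2 then u else 1)) := fun c => by
        obtain ⟨p, q, r⟩ := c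
        cases p <;> cases q <;> cases r <;>
          simp [el, map_mul, hx, hy, hzq, QuotientGroup.mk_mul]
      have helH : ∀ c, el c ∈ H := fun c => by
        have hxH : x ∈ H := Subgroup.subset_closure (Or.inr (Or.inl rfl))
        have hyH : y ∈ H := Subgroup.subset_closure (Or.inr (Or.inr (Or.inl rfl)))
        have hzH : z ∈ H := Subgroup.subset_closure (Or.inr (Or.inr (Or.inr rfl)))
        obtain ⟨p, q, r⟩ := c
        cases p <;> cases q <;> cases r <;> simp [el, mul_mem, one_mem, hxH, hyH, hzH]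
      let F : (Bool × Bool × Bool) × V → H := fun cv => ⟨el cv.1 * cv.2, mul_mem (helH _) (hVH cv.2.2)⟩
      have hF : Function.Injective F := by
        rintro ⟨c, v⟩ ⟨c', v'⟩ e
        have e' : el c * v = el c' * v' := congrArg Subtype.val e
        have e2 : (el c : Y ⧸ V) = el c' := by
          have := congrArg (fun d : Y => (d : Y ⧸ V)) e'
          simpa [QuotientGroup.mk_mul, (QuotientGroup.eq_one_iff _).2 v.2,
            (QuotientGroup.eq_one_iff _).2 v'.2] using this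
        rw [hel, hel] at e2
        obtain rfl := hinj8 (hψ e2)
        exact Prod.ext rfl (Subtype.ext (mul_left_cancel e'))
      refine le_trans (le_of_eq ?_) (Nat.card_le_card_of_injective F hF)
      simp [Nat.card_prod, hV]
    have hN4 : Nat.card N = 4 := by
      rw [hN, Nat.card_congr (Subgroup.subgroupOfEquivOfLe hWH).toEquiv, hWY,
        Subgroup.card_map_of_injective V.subtype_injective, hW4]
    have := N.card_mul_index
    rw [hN4] at this
    omega
  · rw [← QuotientGroup.eq_one_iff]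
    show q (p⁻¹ * p'⁻¹ * p * p') = 1
    rw [map_mul, map_mul, map_mul, map_inv, map_inv, mul_assoc _ (q p), hab (q p)]
    group
  · rw [← QuotientGroup.eq_one_iff]
    show q (p * p) = 1
    let K : Subgroup (H ⧸ N) :=
      { carrier := {a | a * a = 1}
        one_mem' := one_mul 1
        mul_mem' := fun {a b} ha hb => by
          show a * b * (a * b) = 1
          rw [mul_assoc, ← mul_assoc b, hab b a, mul_assoc a b, hb, mul_one, ha]
        inv_mem' := fun {a} ha => by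
          show a⁻¹ * a⁻¹ = 1
          rw [← mul_inv_rev, ha, inv_one] }
    have hle : Subgroup.closure T' ≤ K := by
      rw [Subgroup.closure_le]
      rintro _ ⟨d, hd, rfl⟩
      show q d * q d = 1
      rw [← map_mul]
      apply hqeq
      show (d : Y) * d ∈ WY
      rcases hd with hd | hd | hd | hd
      · rw [h2 _ (show (d : Y) ∈ V from hd)]; exact one_mem _
      · rw [show (d : Y) = x from hd]; exact inW ⟨wx, hwx, hxsq⟩
      · rw [show (d : Y) = y from hd]; exact inW ⟨wy, hwy, hysq⟩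
      · rw [show (d : Y) = z from hd]; exact inW ⟨wz, hwz, hzsq⟩
    rw [map_mul]
    exact hle (hgen ▸ Subgroup.mem_top (q p))

end Extension

end Cfsg.Agent.H54.RankFour
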