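import Mathlib
import Cfsg.Prelude.Def_CaseTheorems
import Cfsg.Prelude.Def_Local
import Cfsg.Agent.H50.AutGLEmbed
import Cfsg.Agent.H58.FrattiniAction
import Cfsg.Agent.H77.Constrained
import Cfsg.Agent.H19.Frattini
import Cfsg.Agent.H40.PCore
import Cfsg.Agent.H50.AltEight.Classify
import Cfsg.Agent.H54.RankFour.SymSix

/-!
The two-radical modulo its Frattini subgroup in a two-constrained group.
-/

set_option autoImplicit false

namespace Cfsg.Agent.H54.RankFour

open Subgroup
open scoped commutatorElement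

variable {X : Type*} [Group X] [Finite X]

/-- Sectional rank bounds pass to quotients. -/
theorem sectional_of_surjective {Y : Type*} [Group Y] (q : X →* Y) (hq : Function.Surjective q) {p k : ℕ}
    (h : Cfsg.SectionalPRankLE p k X) : Cfsg.SectionalPRankLE p k Y := by
  intro H N hN A hA hAp
  haveI := hN
  let r : ↥(H.comap q) →* H := q.subgroupComap H
  have hr : Function.Surjective r := q.subgroupComap_surjective_of_surjective H hq
  let π : ↥(H.comap q) →* H ⧸ N := (QuotientGroup.mk' N).comp r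
  let e : ↥(H.comap q) ⧸ π.ker ≃* H ⧸ N :=
    QuotientGroup.quotientKerEquivOfSurjective π ((QuotientGroup.mk'_surjective N).comp hr)
  have h' := h (H.comap q) π.ker (A.map e.symm.toMonoidHom) ?_ ?_
  · rwa [Subgroup.card_map_of_injective e.symm.injective] at h'
  · refine ⟨⟨fun a b => Subtype.ext ?_⟩⟩
    obtain ⟨_, a, ha, rfl⟩ := a
    obtain ⟨_, b, hb, rfl⟩ := b
    show e.symm a * e.symm b = e.symm b * e.symm a
    rw [← map_mul, ← map_mul, show a * b = b * a from
      congrArg Subtype.val (mul_comm' (⟨a, ha⟩ : A) ⟨b, hb⟩)]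
  · rintro _ ⟨a, ha, rfl⟩
    rw [← map_pow, hAp a ha, map_one]

/-- An element centralising the radical modulo its Frattini subgroup lies in the radical. -/
theorem mem_pCore_of_centralizes_mod_frattini (hc : Cfsg.IsPConstrained 2 X) (hO : Cfsg.oddCore X = ⊥) {g : X}
    (hg : ∀ v : ↥(Cfsg.pCore 2 X), ∃ w ∈ frattini ↥(Cfsg.pCore 2 X), g * v * g⁻¹ = (v : X) * w) :
    g ∈ Cfsg.pCore 2 X := by
  haveI : Fact (Nat.Prime 2) := ⟨Nat.prime_two⟩
  set P := Cfsg.pCore 2 X with hP
  haveI hPn : P.Normal := Cfsg.Agent.H40.pCore_normal' 2 X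
  have hPp : IsPGroup 2 P := Cfsg.Agent.H40.isPGroup_pCore 2 X
  have hCP := Cfsg.Agent.H77.centralizer_pCore_le_of_constrained hc hO
  let φ₀ : X →* MulAut (↥P ⧸ frattini P) :=
    (Cfsg.Agent.H50.quotientAutHom (frattini P)).comp MulAut.conjNormal
  have hgker : g ∈ φ₀.ker := by
    refine MonoidHom.mem_ker.2 (MulEquiv.ext fun v => ?_)
    induction v using QuotientGroup.induction_on with
    | _ v =>
      show ((MulAut.conjNormal g v : P) : ↥P ⧸ frattini P) = (v : ↥P ⧸ frattini P)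
      obtain ⟨w, hw, e⟩ := hg v
      rw [show MulAut.conjNormal g v = v * w from Subtype.ext (by rw [MulAut.conjNormal_apply, e]; rfl),
        QuotientGroup.mk_mul, (QuotientGroup.eq_one_iff w).2 hw, mul_one]
  have hker : φ₀.ker ≤ P := by
    refine Cfsg.Agent.H40.le_pCore φ₀.normal_ker ?_
    by_contra hnot
    obtain ⟨r, hr, hrdvd, hr2⟩ : ∃ r : ℕ, r.Prime ∧ r ∣ Nat.card φ₀.ker ∧ r ≠ 2 := by
      by_contra hall
      push Not at hall
      exact hnot (IsPGroup.of_card (n := (Nat.card φ₀.ker).primeFactorsList.length)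
        (Nat.eq_prime_pow_of_unique_prime_dvd Nat.card_pos.ne' fun {d} hd hdd => hall d hd hdd))
    haveI := Fact.mk hr
    obtain ⟨x, hx⟩ := exists_prime_orderOf_dvd_card' r hrdvd
    have hord : orderOf (x : X) = r := by rw [Subgroup.orderOf_coe, hx]
    have hfix := Cfsg.Agent.H58.aut_eq_one_of_trivial_mod_frattini hPp hr2
      (MulAut.conjNormal (x : X) : MulAut P)
      (by rw [← map_pow, ← hord, pow_orderOf_eq_one, map_one])
      (Cfsg.Agent.H50.quotientAutHom_eq_one (frattini P) x.2)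
    have hxC : (x : X) ∈ P := hCP (Subgroup.mem_centralizer_iff.mpr fun q hq => by
      have h := congrArg Subtype.val (hfix ⟨q, hq⟩)
      rw [MulAut.conjNormal_apply, mul_inv_eq_iff_eq_mul] at h
      exact h.symm)
    obtain ⟨k, hk⟩ := hPp (⟨x, hxC⟩ : P)
    have hk2 : orderOf (⟨x, hxC⟩ : P) ∣ 2 ^ k := orderOf_dvd_of_pow_eq_one hk
    rw [Subgroup.orderOf_mk, hord] at hk2
    exact hr2 ((Nat.prime_dvd_prime_iff_eq hr Nat.prime_two).mp (hr.dvd_of_dvd_pow hk2))
  exact hker hgker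

/-- No quotient by the radical contains the symmetric group of degree six when the sectional rank
is at most four. -/
theorem no_sym_six (hc : Cfsg.IsPConstrained 2 X) (hO : Cfsg.oddCore X = ⊥)
    (h4 : Cfsg.SectionalPRankLE 2 4 X) [(Cfsg.pCore 2 X).Normal]
    (ψ₀ : Equiv.Perm (Fin 6) →* X ⧸ Cfsg.pCore 2 X) (hψ₀ : Function.Injective ψ₀) : False := by
  haveI : Fact (Nat.Prime 2) := ⟨Nat.prime_two⟩
  set P := Cfsg.pCore 2 X with hP
  have hPp : IsPGroup 2 P := Cfsg.Agent.H40.isPGroup_pCore 2 X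
  obtain ⟨hcomm, hpow⟩ := Cfsg.Agent.H19.commutator_pow_mem_frattini hPp
  set Φ : Subgroup X := (frattini P).map P.subtype with hΦ
  haveI : Φ.Normal := inferInstance
  have hle : Φ ≤ P := map_subtype_le _
  let q : X →* X ⧸ Φ := QuotientGroup.mk' Φ
  set V : Subgroup (X ⧸ Φ) := P.map q with hV
  haveI : V.Normal := (inferInstance : P.Normal).map q (QuotientGroup.mk'_surjective Φ)
  have hmem : ∀ {w : P}, w ∈ frattini P → q w = 1 := fun {w} hw =>
    (QuotientGroup.eq_one_iff (w : X)).2 ⟨w, hw, rfl⟩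
  have hVc : ∀ a ∈ V, ∀ b ∈ V, a * b = b * a := by
    rintro _ ⟨a, ha, rfl⟩ _ ⟨b, hb, rfl⟩
    have h : ⁅(⟨a, ha⟩ : P), (⟨b, hb⟩ : P)⁆ ∈ frattini P :=
      hcomm (commutator_mem_commutator (mem_top _) (mem_top _))
    have h' : q ((⁅(⟨a, ha⟩ : P), (⟨b, hb⟩ : P)⁆ : P) : X) = 1 := hmem h
    simp only [commutatorElement_def, Subgroup.coe_mul, InvMemClass.coe_inv, map_mul, map_inv] at h'
    rwa [mul_inv_eq_one, mul_inv_eq_iff_eq_mul] at h'
  have hV2 : ∀ a ∈ V, a * a = 1 := by
    rintro _ ⟨a, ha, rfl⟩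
    have h := hmem (hpow ⟨a, ha⟩)
    simpa [pow_two, map_mul] using h
  have hCV : ∀ y : X ⧸ Φ, (∀ v ∈ V, y * v = v * y) → y ∈ V := by
    intro y hy
    obtain ⟨g, rfl⟩ := QuotientGroup.mk'_surjective Φ y
    refine ⟨g, mem_pCore_of_centralizes_mod_frattini hc hO fun v => ?_, rfl⟩
    have h : q ((v : X)⁻¹ * (g * v * g⁻¹)) = 1 := by
      have hy' : q g * q (v : X) = q (v : X) * q g := hy _ ⟨v, v.2, rfl⟩
      rw [map_mul, map_mul, map_mul, map_inv, map_inv, hy']
      group
    obtain ⟨w, hw, e⟩ := (QuotientGroup.eq_one_iff _).1 h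
    exact ⟨w, hw, by rw [show (w : X) = _ from e]; group⟩
  let e : (X ⧸ Φ) ⧸ V ≃* X ⧸ P := QuotientGroup.quotientQuotientEquivQuotient Φ P hle
  let ψ : Equiv.Perm (Fin 6) →* (X ⧸ Φ) ⧸ V := e.symm.toMonoidHom.comp ψ₀
  have hψ : Function.Injective ψ := e.symm.injective.comp hψ₀
  have h4Y := sectional_of_surjective q (QuotientGroup.mk'_surjective Φ) h4
  have h720 : Nat.card (Equiv.Perm (Fin 6)) = 720 := by rw [Nat.card_perm, Nat.card_fin]; rfl
  -- the order of the module
  have hV16 : Nat.card V = 16 := by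
    haveI : IsMulCommutative V := ⟨⟨fun x y => Subtype.ext (hVc x x.2 y y.2)⟩⟩
    letI : CommGroup V :=
      { (inferInstance : Group V) with mul_comm := fun x y => Subtype.ext (hVc x x.2 y y.2) }
    have hexp : ∀ v : V, v ^ 2 = 1 := fun v => Subtype.ext (by simpa [pow_two] using hV2 v v.2)
    have hle16 : Nat.card V ≤ 16 := by
      have h := h4Y ⊤ ⊥ (V.map ((QuotientGroup.mk' (⊥ : Subgroup ↥(⊤ : Subgroup (X ⧸ Φ)))).comp
        (Subgroup.topEquiv (G := X ⧸ Φ)).symm.toMonoidHom)) ?_ ?_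
      · rwa [Subgroup.card_map_of_injective] at h
        intro a b hab
        have := (QuotientGroup.eq).1 (hab : (_ : ↥(⊤ : Subgroup (X ⧸ Φ)) ⧸ (⊥ : Subgroup ↥(⊤ : Subgroup (X ⧸ Φ)))) = _)
        rw [mem_bot, inv_mul_eq_one] at this
        exact congrArg Subtype.val this
      · refine ⟨⟨fun a b => Subtype.ext ?_⟩⟩
        obtain ⟨_, a, ha, rfl⟩ := a
        obtain ⟨_, b, hb, rfl⟩ := b
        exact ((map_mul _ a b).symm.trans (congrArg _ (hVc a ha b hb))).trans (map_mul _ b a)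
      · rintro _ ⟨a, ha, rfl⟩
        rw [← map_pow, pow_two, hV2 a ha, map_one]
    have hk : V ≤ (MulAut.conjNormal (H := V)).ker := fun y hy => MulEquiv.ext fun x => Subtype.ext (by
      rw [MulAut.conjNormal_apply, hVc y hy x x.2, mul_inv_cancel_right]; rfl)
    let χ : (X ⧸ Φ) ⧸ V →* MulAut V := QuotientGroup.lift V MulAut.conjNormal hk
    have hχ : Function.Injective χ := by
      rw [injective_iff_map_eq_one]
      intro z
      induction z using QuotientGroup.induction_on with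
      | _ y =>
        intro hy
        rw [QuotientGroup.eq_one_iff]
        refine hCV y fun x hx => ?_
        have h : MulAut.conjNormal y (⟨x, hx⟩ : V) = (⟨x, hx⟩ : V) := DFunLike.congr_fun hy ⟨x, hx⟩
        exact mul_inv_eq_iff_eq_mul.1 (congrArg Subtype.val h)
    obtain ⟨k, hk2⟩ := IsPGroup.iff_card.1 ((hPp.map q) : IsPGroup 2 V)
    rw [hk2] at hle16 ⊢
    by_contra hne
    have hk3 : k ≤ 3 := by
      by_contra hcon
      have h4' : k ≤ 4 := (Nat.pow_le_pow_iff_right (by norm_num : 1 < 2)).1 (hle16.trans (by norm_num : 16 ≤ 2 ^ 4))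
      exact hne (by rw [show k = 4 by omega]; norm_num)
    obtain ⟨f, hf⟩ := Cfsg.Agent.H50.exists_injective_hom_GL (p := 2) (n := 3) hexp
      (by rw [hk2]; exact Nat.pow_le_pow_right (by norm_num) hk3)
    have hc := Nat.card_le_card_of_injective (fun σ => f (χ (ψ σ))) (hf.comp (hχ.comp hψ))
    rw [h720, Cfsg.Agent.H50.AltEight.gl_three_two.2] at hc
    omega
  obtain ⟨H, N, hN, hidx, hNc, hN2⟩ := exists_section V hVc hV2 hV16 hCV ψ hψ
  haveI := hN
  have h := h4Y H N ⊤ ⟨⟨fun a b => Subtype.ext ?_⟩⟩ ?_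
  · rw [Subgroup.card_top, ← Subgroup.index_eq_card] at h
    omega
  · obtain ⟨a, -⟩ := a
    obtain ⟨b, -⟩ := b
    show a * b = b * a
    induction a using QuotientGroup.induction_on with
    | _ a =>
      induction b using QuotientGroup.induction_on with
      | _ b =>
        have h := (QuotientGroup.eq_one_iff _).2 (hNc a b)
        simp only [QuotientGroup.mk_mul, QuotientGroup.mk_inv] at h
        calc (a : H ⧸ N) * b = (b : H ⧸ N) * a * ((a : H ⧸ N)⁻¹ * (b : H ⧸ N)⁻¹ * a * b) := by group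
          _ = _ := by rw [h, mul_one]
  · intro a _
    induction a using QuotientGroup.induction_on with
    | _ a =>
      rw [pow_two]
      exact (QuotientGroup.eq_one_iff _).2 (hN2 a)

end Cfsg.Agent.H54.RankFour
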