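import Cfsg.Agent.S3103
import Cfsg.Agent.H54.RankFour.AltEightOdd
import Cfsg.Agent.H54.RankFour.Radical

/-!
The quotient by the two-radical of a nonsolvable two-constrained group of small sectional rank.
-/

set_option autoImplicit false

namespace Cfsg.Agent.H54.RankFour

open Equiv

theorem gl_three_two_psl :
    Nonempty (GL (Fin 3) (ZMod 2) ≃* Matrix.ProjectiveSpecialLinearGroup (Fin 3) (ZMod 2)) := by
  have hone : ∀ r : ZMod 2, r ≠ 0 → r = 1 := by decide
  let ι : Matrix.SpecialLinearGroup (Fin 3) (ZMod 2) →* GL (Fin 3) (ZMod 2) :=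
    Matrix.SpecialLinearGroup.toGL
  have hιs : Function.Surjective ι := fun g =>
    ⟨⟨(g : Matrix (Fin 3) (Fin 3) (ZMod 2)), hone _ (g.isUnit.map Matrix.detMonoidHom).ne_zero⟩,
      Units.ext rfl⟩
  have hιi : Function.Injective ι := fun a b h => Subtype.ext (congrArg Units.val h)
  have hcen : Subgroup.center (Matrix.SpecialLinearGroup (Fin 3) (ZMod 2)) = ⊥ := by
    rw [eq_bot_iff]
    intro A hA
    rw [Matrix.SpecialLinearGroup.mem_center_iff] at hA
    obtain ⟨r, hr, hA⟩ := hA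
    have hr1 : r = 1 := (show ∀ r : ZMod 2, r ^ 3 = 1 → r = 1 by decide) r (by simpa using hr)
    rw [Subgroup.mem_bot]
    apply Subtype.ext
    rw [← hA, hr1, map_one]
    rfl
  exact ⟨(MulEquiv.ofBijective ι ⟨hιi, hιs⟩).symm.trans
      ((QuotientGroup.quotientBot.symm).trans (QuotientGroup.quotientMulEquivOfEq hcen.symm))⟩

/-- The symmetric group of degree six embeds in the symmetric group of degree seven. -/
theorem exists_six_seven : ∃ f : Perm (Fin 6) →* Perm (Fin 7), Function.Injective f := by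
  refine ⟨Perm.viaEmbeddingHom (Fin.castLEEmb (by norm_num)), Perm.viaEmbeddingHom_injective _⟩

/-- The symmetric group of degree six embeds in the alternating group of degree eight. -/
theorem exists_six_eight : ∃ f : Perm (Fin 6) →* alternatingGroup (Fin 8), Function.Injective f := by
  let z : Perm (Fin 6) → Perm (Fin 2) := fun g => if Perm.sign g = 1 then 1 else swap 0 1
  let zh : Perm (Fin 6) →* Perm (Fin 2) := MonoidHom.mk' z fun a b => by
    have hsw : (swap (0 : Fin 2) 1) * swap 0 1 = 1 := swap_mul_self 0 1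
    simp only [z, map_mul]
    rcases Int.units_eq_one_or (Perm.sign a) with ha | ha <;>
      rcases Int.units_eq_one_or (Perm.sign b) with hb | hb <;>
      simp [ha, hb, hsw, show (-1 : ℤˣ) ≠ 1 by decide]
  let F : Perm (Fin 6) →* Perm (Fin 8) :=
    (finSumFinEquiv.permCongrHom : Perm (Fin 6 ⊕ Fin 2) ≃* Perm (Fin 8)).toMonoidHom.comp
      ((Perm.sumCongrHom (Fin 6) (Fin 2)).comp ((MonoidHom.id _).prod zh))
  have hF : ∀ g, F g ∈ alternatingGroup (Fin 8) := by
    intro g
    rw [Perm.mem_alternatingGroup]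
    show Perm.sign (finSumFinEquiv.permCongr (Perm.sumCongr g (z g))) = 1
    rw [Perm.sign_permCongr, Perm.sign_sumCongr]
    rcases Int.units_eq_one_or (Perm.sign g) with h | h
    · simp [z, h]
    · simp [z, h, show (-1 : ℤˣ) ≠ 1 by decide]
  refine ⟨F.codRestrict _ hF, fun a b h => ?_⟩
  have h' : F a = F b := congrArg Subtype.val h
  exact congrArg Prod.fst (Perm.sumCongrHom_injective ((finSumFinEquiv.permCongrHom).injective h'))

/-- The possible quotients. -/
theorem quotient_cases {Q : Type*} [Group Q] [Finite Q] (f : Q →* Cfsg.Agent.H50.AltEight.A8)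
    (hf : Function.Injective f) (hns : ¬ Group.IsSolvable Q) (hO2 : Cfsg.pCore 2 Q = ⊥)
    [(Cfsg.pCore 3 Q).Normal] :
    (∃ (F : Type) (_ : Field F) (_ : Fintype F), Fintype.card F = 2 ∧
        Nonempty (Q ≃* Matrix.ProjectiveSpecialLinearGroup (Fin 3) F)) ∨
      (∃ n : ℕ, 5 ≤ n ∧ n ≤ 8 ∧ Nonempty (Q ≃* ↥(alternatingGroup (Fin n)))) ∨
      (∃ n : ℕ, 5 ≤ n ∧ n ≤ 7 ∧ Nonempty (Q ≃* Equiv.Perm (Fin n))) ∨
      (Nat.card ↥(Cfsg.pCore 3 Q) = 3 ∧
        (Nonempty (Q ⧸ Cfsg.pCore 3 Q ≃* ↥(alternatingGroup (Fin 5))) ∨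
          Nonempty (Q ⧸ Cfsg.pCore 3 Q ≃* Equiv.Perm (Fin 5)))) := by
  by_cases hO : Cfsg.pPrimeCore 2 Q = ⊥
  · haveI : Nontrivial Q := not_subsingleton_iff_nontrivial.1 fun h => hns inferInstance
    rcases Cfsg.Agent.H50.AltEight.classification f hf hO hO2 with h | h | h | h
    · exact Or.inr (Or.inl h)
    · exact Or.inr (Or.inr (Or.inl ⟨5, le_rfl, by norm_num, h⟩))
    · exact Or.inr (Or.inr (Or.inl ⟨6, by norm_num, by norm_num, h⟩))
    · obtain ⟨e⟩ := h
      obtain ⟨e'⟩ := gl_three_two_psl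
      exact Or.inl ⟨ZMod 2, inferInstance, inferInstance, ZMod.card 2, ⟨e.trans e'⟩⟩
  · obtain ⟨h3, h⟩ := odd_core_case f hf hns hO
    exact Or.inr (Or.inr (Or.inr ⟨h3, h⟩))

end Cfsg.Agent.H54.RankFour
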